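import Cfsg.Agent.Lib.RV.Dat
import Cfsg.Agent.Lib.PSL2.Dickson

/-! # Linear data with three radical lines -/

set_option autoImplicit false

namespace Cfsg.Lib.RV

open scoped MatrixGroups
open Matrix Cfsg.Lib.PSL2

variable {p : ℕ} [hp : Fact p.Prime]

section words
variable {K : Type*} [CommRing K]

/-- Evaluation of a word. -/
def ev (l : List (M2 K)) (w : List ℕ) : M2 K := (w.map (l.getD · 1)).prod

/-- A matrix that is not semisimple. -/
def bad (m : M2 K) : Prop := (m.a - m.d) ^ 2 + 4 * m.b * m.c = 0 ∧ ¬ (m.b = 0 ∧ m.c = 0)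

instance instDecBad [DecidableEq K] (m : M2 K) : Decidable (bad m) := by
  unfold bad; infer_instance

/-- The first generator. -/
abbrev mA : M2 K := ⟨98, 0, 0, 4⟩
/-- The second generator. -/
abbrev mB : M2 K := ⟨51, 47, 47, 51⟩

/-- The standard radical vectors. -/
def R0 (v : K × K) : Prop := v ≠ 0 ∧ (v.1 = 0 ∨ v.2 = 0 ∨ v.1 ^ 4 = v.2 ^ 4)

instance instDecR0 [DecidableEq K] (v : K × K) : Decidable (R0 v) := by
  unfold R0; infer_instance

end words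

/-- The dihedral group of order eight. -/
def L8 (m : M2 (ZMod 3)) : Prop :=
  ∃ w ∈ [[], [0], [1], [0, 1], [1, 0], [0, 1, 0], [1, 0, 1], [0, 1, 0, 1]], m = ev [mA, mB] w

instance instDecL8 (m : M2 (ZMod 3)) : Decidable (L8 m) := by unfold L8; infer_instance

theorem fin1 {p : ℕ} (h3 : p = 3 ∨ p = 5 ∨ p = 13) : ∀ c : ZMod p,
    (⟨c + 4, 94 - c, c, 98 - c⟩ : M2 (ZMod p)) = mB ∨ ∃ w ∈ [[0, 1],
      [0, 0, 0, 1, 0, 1], [0, 0, 0, 1], [0, 0, 0, 1, 0, 1, 1, 1], [0, 0, 0, 1, 0, 1, 0, 0, 1, 1],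
      [0, 0, 0, 1, 0, 0, 1, 1, 0, 1]],
      bad (ev [mA, (⟨c + 4, 94 - c, c, 98 - c⟩ : M2 (ZMod p))] w) := by
  rcases h3 with rfl | rfl | rfl <;> decide +kernel

theorem fin2 {p : ℕ} (h3 : p = 3 ∨ p = 5 ∨ p = 13) : ∀ s t : ZMod p, s * t = 1 → t ^ 4 = 1 ∨
    ∃ w ∈ [[0, 1, 0, 2], [0, 0, 1, 2]],
      bad (ev [mA, mB, (⟨1, 0, 0, t⟩ : M2 (ZMod p)) * mB * (⟨1, 0, 0, s⟩ : M2 (ZMod p))] w) := by
  rcases h3 with rfl | rfl | rfl <;> decide +kernel

theorem fin3 {p : ℕ} (h3 : p = 3 ∨ p = 5 ∨ p = 13) : ∀ v : ZMod p × ZMod p, R0 v →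
    ∃ w ∈ [[], [1], [1, 1], [1, 0], [1, 0, 0], [1, 0, 0, 0], [0]], ∃ s : ZMod p, s ≠ 0 ∧
      ((ev [mA, mB] w).ap v = s • (1, 0) ∨ (ev [mA, mB] w).ap v = s • (1, 1)) := by
  rcases h3 with rfl | rfl | rfl <;> decide +kernel

theorem fin4 {p : ℕ} (h3 : p = 5 ∨ p = 13) : ∀ v : ZMod p × ZMod p, R0 v →
    ∃ w ∈ [[], [1], [1, 1], [1, 0], [1, 0, 0], [1, 0, 0, 0]], ((ev [mA, mB] w).ap v).2 = 0 := by
  rcases h3 with rfl | rfl <;> decide +kernel

theorem fin5 {p : ℕ} (h3 : p = 5 ∨ p = 13) : ∀ a d : ZMod p, a ≠ 0 → a ^ 4 = d ^ 4 →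
    ∃ i ∈ List.range 12, ∃ j ∈ List.range 4,
      (⟨a, 0, 0, d⟩ : M2 (ZMod p)) = mA ^ i * (mA * mA * mB) ^ (2 * j) := by
  rcases h3 with rfl | rfl <;> decide +kernel

theorem fin6 {p : ℕ} (h3 : p = 3 ∨ p = 5 ∨ p = 13) :
    (8 : ZMod p) ≠ 0 ∧ (94 : ZMod p) ≠ 0 ∧ (2 : ZMod p) ^ 3 ≠ 1 ∧ (2 : ZMod p) * 98 = 1 := by
  rcases h3 with rfl | rfl | rfl <;> decide

theorem fin7 : ∀ a b c d : ZMod 3, (⟨a, b, c, d⟩ : M2 (ZMod 3)).det ≠ 0 → (L8 ⟨a, b, c, d⟩ ∨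
    L8 (⟨1, 1, 1, 2⟩ * ⟨a, b, c, d⟩)) ∨ ∃ w ∈ [[], [0], [1], [0, 1], [1, 0], [0, 1, 0], [1, 0, 1],
      [0, 1, 0, 1]], bad (ev [mA, mB] w * (⟨a, b, c, d⟩ : M2 (ZMod 3))) := by decide +kernel

theorem fin8 : ∀ v : ZMod 3 × ZMod 3, v ≠ 0 → R0 v := by decide

namespace Dat
variable {D D' : Dat p} {m n : M2 (ZMod p)}

theorem ev_mem (D : Dat p) {l : List (M2 (ZMod p))} (h : ∀ m ∈ l, m ∈ D.W) (w : List ℕ) :
    ev l w ∈ D.W := by
  induction w with
  | nil => exact D.one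
  | cons i w ih =>
    refine D.mul (?_ : l.getD i 1 ∈ D.W) ih
    rw [List.getD_eq_getElem?_getD]
    cases e : l[i]? with
    | none => exact D.one
    | some m => exact h m (List.mem_of_getElem? e)

theorem not_bad (D : Dat p) (h2 : p ≠ 2) (h : m ∈ D.W) : ¬ bad m := fun ⟨h1, h3⟩ => h3 (by
  have two := He.two_ne h2
  obtain ⟨a, b, c, d⟩ := m
  obtain ⟨s, e, rfl, rfl⟩ : ∃ s e, a = s + e ∧ d = s - e :=
    ⟨(a + d) / 2, (a - d) / 2, by field_simp; ring, by field_simp; ring⟩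
  have he : e ^ 2 + b * c = 0 := mul_left_cancel₀ (mul_ne_zero two two) (by
    simp only at h1; linear_combination h1)
  have hs : s ≠ 0 := fun h0 => D.det_ne h (by simp only [M2.det, h0]; linear_combination -he)
  have k : ∀ k : ℕ, (⟨s + e, b, c, s - e⟩ : M2 (ZMod p)) ^ k =
      ⟨s ^ k * (1 + k * e / s), s ^ k * (k * b / s), s ^ k * (k * c / s), s ^ k * (1 - k * e / s)⟩ :=
    fun k => by
      induction k with
      | zero => ext <;> simp
      | succ k ih =>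
        rw [pow_succ, ih]
        ext <;> simp <;> field_simp <;> first | ring1 | linear_combination (s ^ k * k) * he | linear_combination k * he
  obtain ⟨i, h4, h5⟩ := D.cop h
  rw [k] at h5
  have hi : (i : ZMod p) ≠ 0 := by rwa [Ne, ZMod.natCast_eq_zero_iff]
  exact ⟨by simpa [hs, hi] using congrArg M2.b h5, by simpa [hs, hi] using congrArg M2.c h5⟩)

theorem dick (D : Dat p) :
    (∀ m ∈ D.W, ∀ n ∈ D.W, ∃ s : ZMod p, n * n * (m * m) = ⟨s, 0, 0, s⟩ * (m * m * (n * n))) ∨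
      ∀ m ∈ D.W, ∃ k, (k = 3 ∨ k = 4 ∨ k = 5) ∧ (m ^ k).a = (m ^ k).d := by
  let Wm : Submonoid (M2 (ZMod p)) := ⟨⟨D.W, D.mul⟩, D.one⟩
  let ψ : Wm →* GL (Fin 2) (ZMod p) :=
    { toFun := fun m => gl2 m.1.a m.1.b m.1.c m.1.d (D.det_ne m.2)
      map_one' := by ext i j; fin_cases i <;> fin_cases j <;> simp
      map_mul' := fun m n => by
        ext i j; fin_cases i <;> fin_cases j <;> simp [Matrix.mul_apply, Fin.sum_univ_two, gl2] }
  let φ : Wm →* PGL(2, ZMod p) := (ProjGenLinGroup.mk).comp ψ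
  let H : Subgroup PGL(2, ZMod p) :=
    { carrier := Set.range φ
      mul_mem' := by rintro _ _ ⟨a, rfl⟩ ⟨b, rfl⟩; exact ⟨a * b, map_mul _ _ _⟩
      one_mem' := ⟨1, map_one _⟩
      inv_mem' := by
        rintro _ ⟨a, rfl⟩
        obtain ⟨n, h1, h2, -⟩ := D.inv a.2
        exact ⟨⟨n, h1⟩, eq_inv_of_mul_eq_one_right (by
          rw [← map_mul, show a * ⟨n, h1⟩ = 1 from Subtype.ext h2, map_one])⟩ }
  have hH : (Nat.card H).Coprime p := by
    rw [Nat.coprime_comm, hp.out.coprime_iff_not_dvd]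
    intro h
    obtain ⟨⟨_, a, rfl⟩, hg⟩ := exists_prime_orderOf_dvd_card' p h
    obtain ⟨k, h1, h2⟩ := D.cop a.2
    refine h1 (hg ▸ orderOf_dvd_of_pow_eq_one (Subtype.ext ?_))
    change φ a ^ k = 1
    rw [← map_pow, show a ^ k = 1 from Subtype.ext h2, map_one]
  have key : ∀ {G : Type} [Group G], (H ≃* G) → (∀ g : G, g ^ 3 = 1 ∨ g ^ 4 = 1 ∨ g ^ 5 = 1) →
      ∀ m ∈ D.W, ∃ k, (k = 3 ∨ k = 4 ∨ k = 5) ∧ (m ^ k).a = (m ^ k).d := fun e h m hm => by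
    have k : ∀ k : ℕ, e ⟨φ ⟨m, hm⟩, _, rfl⟩ ^ k = 1 → (m ^ k).a = (m ^ k).d := fun k hk => by
      rw [← map_pow, map_eq_one_iff _ e.injective, Subtype.ext_iff] at hk
      change φ _ ^ k = 1 at hk
      rw [← map_pow] at hk
      exact ((pgl_mk_eq_one_iff _).1 hk).2.2
    rcases h (e ⟨φ ⟨m, hm⟩, _, rfl⟩) with h | h | h
    exacts [⟨3, by simp, k _ h⟩, ⟨4, by simp, k _ h⟩, ⟨5, by simp, k _ h⟩]
  rcases dickson_pgl_coprime (AlgebraicClosure (ZMod p)) p H hH with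
    ⟨a, b, _, h1, h⟩ | ⟨⟨e⟩⟩ | ⟨⟨e⟩⟩ | ⟨⟨e⟩⟩
  · refine .inl fun m hm n hn => ?_
    have k : ∀ g ∈ H, toK (AlgebraicClosure (ZMod p)) (g * g) ∈ fix2 a b := fun g hg => by
      rw [map_mul]
      rcases mem_pairStab.1 (mem_dih.1 (h hg)) with h | h
      exacts [mul_mem (mem_fix2.2 h) (mem_fix2.2 h), mul_mem_fix2_of_swap h h]
    have := (commute_of_mem_fix2 h1.ne (k _ ⟨⟨m, hm⟩, rfl⟩) (k _ ⟨⟨n, hn⟩, rfl⟩)).eq
    simp only [← map_mul] at this
    rw [toK_injective.eq_iff] at this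
    obtain ⟨u, -, e1, e2, e3, e4⟩ := (pgl_mk_eq_mk_iff _ _).1 this
    change (n * n * (m * m)).a = u * (m * m * (n * n)).a at e1
    change (n * n * (m * m)).b = u * (m * m * (n * n)).b at e2
    change (n * n * (m * m)).c = u * (m * m * (n * n)).c at e3
    change (n * n * (m * m)).d = u * (m * m * (n * n)).d at e4
    exact ⟨u, M2.ext (e1.trans (by simp)) (e2.trans (by simp)) (e3.trans (by simp))
      (e4.trans (by simp))⟩
  · refine .inr (key e fun g => ?_)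
    simp only [Subtype.ext_iff, Subgroup.coe_pow, OneMemClass.coe_one]
    generalize g.1 = x
    revert x; decide +kernel
  · exact .inr (key e (by decide +kernel))
  · refine .inr (key e fun ⟨g, hg⟩ => ?_)
    simp only [Subtype.ext_iff, SubmonoidClass.mk_pow, OneMemClass.coe_one]
    rw [Equiv.Perm.mem_alternatingGroup] at hg
    revert g; decide +kernel

/-- First normal form. -/
structure N1 (D : Dat p) (l : ZMod p) : Prop where
  e : (1, 0) ∈ D.R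
  f : (1, 1) ∈ D.R
  A : (⟨l⁻¹, 0, 0, l ^ 2⟩ : M2 (ZMod p)) ∈ D.W

theorem Three.n1 (h : D.Three) {l : ZMod p} (hl : l ≠ 0) (h3 : l ^ 3 ≠ 1) :
    ∃ D' : Dat p, Is D' D ∧ D'.N1 l := by
  obtain ⟨u, hu, v, hv, w, hw, e1, e2, e3⟩ := h
  obtain ⟨m, m1, m2, m3⟩ := D.tor hu hl
  have hδ : l ^ 2 - l⁻¹ ≠ 0 := fun e => h3 (by field_simp at e; linear_combination e)
  have k : ∀ x ∈ D.R, wd u x ≠ 0 → m.ap x ≠ l ^ 2 • x → ∃ D' : Dat p, Is D' D ∧ D'.N1 l :=
    fun x hx h1 h2 => by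
    obtain ⟨e, he⟩ : ∃ e, e * wd u x = 1 := ⟨_, inv_mul_cancel₀ h1⟩
    obtain ⟨s, hs⟩ : ∃ s, m.ap x = l ^ 2 • x - s • u := by
      refine ⟨-e * wd (m.ap x) x, ?_⟩
      have h4 := wd_ap m u x
      rw [m2, m3] at h4
      have h5 : wd u (m.ap x) = l ^ 2 * wd u x := by
        simp only [wd, Prod.smul_fst, Prod.smul_snd, smul_eq_mul] at h4 ⊢
        field_simp at h4; linear_combination h4
      generalize m.ap x = y at h5
      simp only [wd] at h5 he ⊢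
      ext <;> simp only [Prod.fst_sub, Prod.snd_sub, Prod.smul_fst, Prod.smul_snd, smul_eq_mul]
      · linear_combination (l ^ 2 * x.1 - y.1) * he + e * x.1 * h5
      · linear_combination (l ^ 2 * x.2 - y.2) * he + e * x.2 * h5
    have s0 : s ≠ 0 := fun e => h2 (by simp [hs, e])
    set t := s / (l ^ 2 - l⁻¹) with ht
    have t0 : t ≠ 0 := div_ne_zero s0 hδ
    obtain ⟨g, g', g1, g2, g3, g4⟩ := exists_basis (u := t • u) (v := x - t • u) (by
      convert mul_ne_zero t0 h1 using 1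
      simp [wd]; ring)
    have g5 : g'.ap (1, 1) = x := by
      rw [← add_sub_cancel (t • u) x, ← g4, ← g3]; ext <;> simp
    refine ⟨_, D.is_conj g1 g2, ?_, ?_, ?_⟩
    · change _ ∈ D.R; rw [g3]; exact D.smul hu t0
    · change _ ∈ D.R; rwa [g5]
    · change _ ∈ D.W
      convert m1 using 1
      suffices g' * ⟨l⁻¹, 0, 0, l ^ 2⟩ = m * g' by rw [this, mul_assoc, g2, mul_one]
      have q1 : (m * g').ap (1, 0) = l⁻¹ • g'.ap (1, 0) := by
        rw [M2.mul_ap, g3, M2.ap_smul, m2, smul_comm]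
      have q2 : (m * g').ap (0, 1) = l ^ 2 • g'.ap (0, 1) := by
        have : m.ap (x - t • u) = m.ap x - t • m.ap u := by ext <;> simp <;> ring
        rw [M2.mul_ap, g4, this, hs, m2, show s = t * (l ^ 2 - l⁻¹) by rw [ht]; field_simp]
        ext <;> simp <;> ring
      simp only [Prod.ext_iff, M2.ap_fst, M2.ap_snd, Prod.smul_fst, Prod.smul_snd, smul_eq_mul,
        mul_one, mul_zero, add_zero, zero_add] at q1 q2
      ext
      exacts [by rw [q1.1]; simp [mul_comm], by rw [q2.1]; simp [mul_comm],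
        by rw [q1.2]; simp [mul_comm], by rw [q2.2]; simp [mul_comm]]
  by_cases h4 : m.ap v = l ^ 2 • v
  swap
  · exact k v hv e1 h4
  refine k w hw e2 fun h5 => ?_
  have h6 := wd_ap m v w
  rw [h4, h5, m3] at h6
  refine h3 (mul_right_cancel₀ (mul_ne_zero hl e3) ?_)
  simp only [wd, Prod.smul_fst, Prod.smul_snd, smul_eq_mul] at h6 ⊢
  linear_combination h6

theorem N1.B {l : ZMod p} (h : D.N1 l) (hl : l ≠ 0) :
    ∃ c, (⟨c + l ^ 2, l⁻¹ - l ^ 2 - c, c, l⁻¹ - c⟩ : M2 (ZMod p)) ∈ D.W := by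
  obtain ⟨⟨a, b, c, d⟩, m1, m2, m3⟩ := D.tor h.f hl
  simp only [Prod.ext_iff, M2.ap_fst, M2.ap_snd, mul_one, Prod.smul_fst, Prod.smul_snd, smul_eq_mul,
    M2.det] at m2 m3
  obtain rfl := eq_sub_of_add_eq' m2.1
  obtain rfl := eq_sub_of_add_eq' m2.2
  obtain rfl : a = c + l ^ 2 := by field_simp at m3; linear_combination m3
  exact ⟨c, by convert m1 using 2; ring⟩

theorem Three.prime (h : D.Three) (h2 : p ≠ 2) : p = 3 ∨ p = 5 ∨ p = 7 ∨ p = 13 := by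
  obtain ⟨g, hg⟩ := IsCyclic.exists_ofOrder_eq_natCard (α := (ZMod p)ˣ)
  rw [Nat.card_eq_fintype_card, ZMod.card_units] at hg
  have key : (g : ZMod p) ^ 12 = 1 ∨ (g : ZMod p) ^ 9 = 1 ∨ (g : ZMod p) ^ 15 = 1 := by
    generalize hl : (g : ZMod p) = l
    have l0 : l ≠ 0 := hl ▸ g.ne_zero
    by_cases h3 : l ^ 3 = 1
    · exact .inl (by rw [show 12 = 3 * 4 from rfl, pow_mul, h3, one_pow])
    obtain ⟨D', -, h1⟩ := h.n1 l0 h3
    obtain ⟨c, hc⟩ := h1.B l0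
    rcases D'.dick with k | k
    · obtain ⟨s, hs⟩ := k _ h1.A _ hc
      left
      generalize hB : (⟨c + l ^ 2, l⁻¹ - l ^ 2 - c, c, l⁻¹ - c⟩ : M2 (ZMod p)) * _ = B at hs
      have b1 : B.a + B.b = l⁻¹ ^ 2 := by rw [← hB]; simp; ring
      have b2 : B.c + B.d = l⁻¹ ^ 2 := by rw [← hB]; simp; ring
      have b3 : B.det = l ^ 2 := by rw [← hB, M2.det_mul]; simp [M2.det]; field_simp; ring
      simp only [M2.ext_iff, M2.mul_a, M2.mul_b, M2.mul_c, M2.mul_d, mul_zero, zero_mul, add_zero,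
        zero_add, M2.det] at hs b3
      obtain ⟨s1, s2, s3, s4⟩ := hs
      by_cases s0 : s = 1
      · by_cases h6 : l ^ 6 = 1
        · rw [show 12 = 6 * 2 from rfl, pow_mul, h6, one_pow]
        subst s0
        have q : l⁻¹ * l⁻¹ - l ^ 2 * l ^ 2 ≠ 0 := fun e => h6 (by field_simp at e; linear_combination -e)
        have q1 : B.b = 0 := mul_left_cancel₀ q (by linear_combination -s2)
        have q2 : B.c = 0 := mul_left_cancel₀ q (by linear_combination s3)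
        rw [q1, add_zero] at b1
        rw [q2, zero_add] at b2
        rw [q1, b1, b2] at b3
        exact (h6 (by field_simp at b3; linear_combination -b3)).elim
      · have q : 1 - s ≠ 0 := sub_ne_zero.2 (Ne.symm s0)
        have q1 : B.a = 0 := mul_left_cancel₀ (mul_ne_zero q (pow_ne_zero 2 (inv_ne_zero l0)))
          (by linear_combination s1)
        have q2 : B.d = 0 := mul_left_cancel₀ (mul_ne_zero q (pow_ne_zero 4 l0))
          (by linear_combination s4)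
        rw [q1, zero_add] at b1
        rw [q2, add_zero] at b2
        rw [q1, b1, b2] at b3
        field_simp at b3
        linear_combination (1 - l ^ 6) * b3
    · obtain ⟨i, hi, e⟩ := k _ h1.A
      rcases hi with rfl | rfl | rfl <;> simp [pow_succ] at e <;> field_simp at e
      exacts [.inr (.inl e.symm), .inl e.symm, .inr (.inr e.symm)]
  have k : ∀ n, (g : ZMod p) ^ n = 1 → p - 1 ∣ n := fun n e =>
    hg ▸ orderOf_dvd_of_pow_eq_one (Units.ext (by simpa using e))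
  have h1 := hp.out
  have h4 : p - 1 ∣ 12 ∨ p - 1 ∣ 9 ∨ p - 1 ∣ 15 := key.imp (k _) (.imp (k _) (k _))
  have h5 : p - 1 ≤ 15 := by
    rcases h4 with h | h | h <;> exact (Nat.le_of_dvd (by norm_num) h).trans (by norm_num)
  have h6 : p ≤ 16 := by omega
  interval_cases p <;> simp_all (config := {decide := true})

/-- Second normal form. -/
structure N2 (D : Dat p) : Prop where
  A : mA ∈ D.W
  B : mB ∈ D.W
  R : ∀ v, v ∈ D.R ↔ R0 v

theorem N1.mB (h : D.N1 2) (h3 : p = 3 ∨ p = 5 ∨ p = 13) : mA ∈ D.W ∧ mB ∈ D.W := by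
  have h2 : p ≠ 2 := by omega
  have two := He.two_ne h2
  have e : (2 : ZMod p)⁻¹ = 98 := inv_eq_of_mul_eq_one_right (fin6 h3).2.2.2
  have hA : mA ∈ D.W := by convert h.A using 2 <;> norm_num [e]
  obtain ⟨c, hc⟩ := h.B two
  have hB : (⟨c + 4, 94 - c, c, 98 - c⟩ : M2 (ZMod p)) ∈ D.W := by
    convert hc using 2 <;> norm_num [e]
  rcases fin1 h3 c with k | ⟨w, -, k⟩
  · exact ⟨hA, k ▸ hB⟩
  · exact (D.not_bad h2 (D.ev_mem (by simp [hA, hB]) w) k).elim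

theorem N1.n2 (h : D.N1 2) (h3 : p = 3 ∨ p = 5 ∨ p = 13) : D.N2 := by
  have h2 : p ≠ 2 := by omega
  obtain ⟨hA, hB⟩ := h.mB h3
  refine ⟨hA, hB, fun v => ⟨fun hv => ⟨D.ne hv, by_contra fun n => ?_⟩, fun hv => ?_⟩⟩
  · push Not at n
    obtain ⟨t, ht⟩ : ∃ t, v.2 = t * v.1 := ⟨v.2 / v.1, by field_simp [n.1]⟩
    have t0 : t ≠ 0 := fun e => n.2.1 (by simp [ht, e])
    obtain ⟨s, hs⟩ : ∃ s, s * t = 1 := ⟨_, inv_mul_cancel₀ t0⟩
    have g1 : (⟨1, 0, 0, s⟩ : M2 (ZMod p)) * ⟨1, 0, 0, t⟩ = 1 := by ext <;> simp [hs]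
    have g2 : (⟨1, 0, 0, t⟩ : M2 (ZMod p)) * ⟨1, 0, 0, s⟩ = 1 := by ext <;> simp [mul_comm t, hs]
    have h4 : (D.conj g1 g2).N1 2 := by
      refine ⟨?_, ?_, ?_⟩
      · change _ ∈ D.R; convert h.e using 1; ext <;> simp
      · change _ ∈ D.R
        convert D.smul hv (inv_ne_zero n.1) using 1
        ext <;> simp [n.1, ht]
        field_simp [n.1]
      · change _ ∈ D.W; convert h.A using 1
        ext <;> simp
        linear_combination 4 * hs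
    have h5 : _ ∈ D.W := (h4.mB h3).2
    rcases fin2 h3 s t hs with k | ⟨w, -, k⟩
    · exact n.2.2 (by rw [ht, mul_pow, k, one_mul])
    · exact D.not_bad h2 (D.ev_mem (by simp [hA, hB, h5]) w) k
  · obtain ⟨w, -, s, hs, k⟩ := fin3 h3 v hv
    refine D.of_ap (D.ev_mem (l := [mA, RV.mB]) (by simp [hA, hB]) w) ?_
    rcases k with k | k <;> rw [k]
    exacts [D.smul h.e hs, D.smul h.f hs]

theorem Three.n2 (h : D.Three) (h3 : p = 3 ∨ p = 5 ∨ p = 13) : ∃ D' : Dat p, Is D' D ∧ D'.N2 := by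
  obtain ⟨D', h1, h2⟩ := h.n1 (l := 2) (He.two_ne (by omega)) (fin6 h3).2.2.1
  exact ⟨D', h1, h2.n2 h3⟩

theorem N2.sub (h : D.N2) (h' : D'.N2) (h3 : p = 5 ∨ p = 13) (hm : m ∈ D.W) : m ∈ D'.W := by
  have k3 := fin6 (.inr h3)
  obtain ⟨w, -, k⟩ := fin4 h3 _ ((h.R _).1 (D.ap hm ((h.R (1, 0)).2 ⟨by simp, by simp⟩)))
  refine D'.of_mul (D'.ev_mem (l := [mA, mB]) (by simp [h'.A, h'.B]) w) ?_
  have h1 := D.mul (D.ev_mem (l := [mA, mB]) (by simp [h.A, h.B]) w) hm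
  rw [← M2.mul_ap] at k
  generalize ev [mA, mB] w * m = n at h1 k
  obtain ⟨a, b, c, d⟩ := n
  obtain rfl : c = 0 := by simpa using k
  have h2 := D.det_ne h1
  simp only [M2.det, mul_zero, sub_zero, ne_eq, mul_eq_zero, not_or] at h2
  have four : (4 : ZMod p) ≠ 0 := fun e => k3.1 (by linear_combination 2 * e)
  have h4 := D.uni (t := -94 * b / (4 * d)) (D.of_mul' (D.mul h.A h1) (by
    convert D.mul h1 h.A using 1
    ext <;> simp [mul_comm]
    field_simp [h2.2]; ring))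
  obtain rfl : b = 0 := by simpa [k3.2.1, four, h2.2] using h4
  have h5 := ((h.R _).1 (D.ap h1 ((h.R (1, 1)).2 ⟨by simp, by simp⟩))).2
  obtain ⟨i, -, j, -, e⟩ := fin5 h3 a d h2.1 (by simpa [h2.1, h2.2] using h5)
  rw [e]
  exact D'.mul (D'.pow h'.A _) (D'.pow (D'.mul (D'.mul h'.A h'.A) h'.B) _)

theorem is_of_three (h3 : p = 5 ∨ p = 13) (h : D.Three) (h' : D'.Three) : Is D D' := by
  obtain ⟨E, e1, e2⟩ := h.n2 (.inr h3)
  obtain ⟨E', e1', e2'⟩ := h'.n2 (.inr h3)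
  exact e1.symm.trans ((is_of_eq (fun m => ⟨e2.sub e2' h3, e2'.sub e2 h3⟩)
    fun v => (e2.R v).trans (e2'.R v).symm).trans e1')

end Dat

namespace Dat
variable [Fact (Nat.Prime 3)] {D D' E : Dat 3}

theorem N2.cases (h : D.N2) : (∀ m, m ∈ D.W ↔ L8 m) ∨
    ∀ m, m ∈ D.W ↔ L8 m ∨ L8 (⟨1, 1, 1, 2⟩ * m) := by
  have k0 : ∀ m, L8 m → m ∈ D.W := by
    rintro _ ⟨w, -, rfl⟩
    exact D.ev_mem (by simp [h.A, h.B]) w
  have k : ∀ m ∈ D.W, L8 m ∨ L8 (⟨1, 1, 1, 2⟩ * m) := fun ⟨a, b, c, d⟩ hm => by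
    refine (fin7 a b c d (D.det_ne hm)).resolve_right fun ⟨w, _, e⟩ => ?_
    exact D.not_bad (by decide) (D.mul (D.ev_mem (by simp [h.A, h.B]) w) hm) e
  by_cases hc : (⟨1, 1, 1, 2⟩ : M2 (ZMod 3)) ∈ D.W
  · exact .inr fun m => ⟨k m, fun e => e.elim (k0 m) fun e => D.of_mul hc (k0 _ e)⟩
  · exact .inl fun m => ⟨fun hm => (k m hm).resolve_right fun e => hc (D.of_mul' hm (k0 _ e)), k0 m⟩

theorem is_or_is (h : D.Three) (hW : D.W ⊆ D'.W) (hR : D.R ⊆ D'.R) (hn : D.W ≠ D'.W)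
    (hE : E.Three) : Is E D ∨ Is E D' := by
  obtain ⟨X, x1, x2⟩ := hE.n2 (.inl rfl)
  obtain ⟨Y, ⟨g', g, g2, g1, y3, y4⟩, y2⟩ := h.n2 (.inl rfl)
  have z2 : (D'.conj g1 g2).N2 := ⟨hW ((y3 _).1 y2.A), hW ((y3 _).1 y2.B), fun v =>
    ⟨fun hv => fin8 v (Dat.ne _ hv), fun hv => hR ((y4 _).1 ((y2.R v).2 hv))⟩⟩
  have y1 : Is Y D := ⟨g', g, g2, g1, y3, y4⟩
  have k : ∀ m, m ∈ Y.W → m ∈ (D'.conj g1 g2).W := fun m hm => hW ((y3 m).1 hm)
  have k' : ¬ ∀ m, m ∈ (D'.conj g1 g2).W → m ∈ Y.W := fun k' => hn (hW.antisymm fun m hm => by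
    have e : g' * (g * m * g') * g = m := by
      rw [show g' * (g * m * g') * g = (g' * g) * m * (g' * g) by simp only [mul_assoc], g2,
        one_mul, mul_one]
    rw [← e] at hm ⊢
    exact (y3 _).1 (k' _ hm))
  have a1 := y2.cases.resolve_right fun a => k' fun m hm => by
    rcases z2.cases with b | b
    exacts [(a m).2 (.inl ((b m).1 hm)), (a m).2 ((b m).1 hm)]
  have a2 := z2.cases.resolve_left fun a => k' fun m hm => (a1 m).2 ((a m).1 hm)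
  rcases x2.cases with b | b
  · exact .inl (x1.symm.trans ((is_of_eq (fun m => (b m).trans (a1 m).symm)
      fun v => (x2.R v).trans (y2.R v).symm).trans y1))
  · exact .inr (x1.symm.trans ((is_of_eq (fun m => (b m).trans (a2 m).symm)
      fun v => (x2.R v).trans (z2.R v).symm).trans (D'.is_conj g1 g2)))

end Dat

end Cfsg.Lib.RV
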