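import Cfsg.Agent.Lib.RV.Fus

/-! # The fusion systems with two radical lines are realized in extensions of `SL₃(p)` -/

set_option autoImplicit false

namespace Cfsg.Lib.RV

open Matrix He Subgroup

variable {p : ℕ} [hp : Fact p.Prime]

local notation "K" => ZMod p
local notation "G3" => GL (Fin 3) (ZMod p)

/-- The unitriangular matrices. -/
def ι3 (h2 : p ≠ 2) : He K →* G3 := (MonoidHom.mk' (M := He K) (G := G3)
  (fun x => GeneralLinearGroup.mkOfDetNeZero !![1, x.a, (x.c + x.a * x.b) / 2; 0, 1, x.b; 0, 0, 1]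
    (by simp [det_fin_three])) fun x y => by
    have := two_ne h2
    ext i j
    fin_cases i <;> fin_cases j <;>
      simp [GeneralLinearGroup.mkOfDetNeZero, Matrix.mul_apply, Fin.sum_univ_three, add_comm]
    field_simp; ring)

theorem ι3_val (h2 : p ≠ 2) (x : He K) :
    (ι3 h2 x : Matrix (Fin 3) (Fin 3) K) = !![1, x.a, (x.c + x.a * x.b) / 2; 0, 1, x.b; 0, 0, 1] := rfl

/-- Reflection in the antidiagonal. -/
def fl (M : Matrix (Fin 3) (Fin 3) K) : Matrix (Fin 3) (Fin 3) K := Mᵀ.submatrix Fin.rev Fin.rev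

theorem fl_mul (M N : Matrix (Fin 3) (Fin 3) K) : fl (M * N) = fl N * fl M := by
  ext i j; simp [fl, Matrix.mul_apply, Fin.sum_univ_three]; ring

theorem fl_one : fl (1 : Matrix (Fin 3) (Fin 3) K) = 1 := by
  ext i j; fin_cases i <;> fin_cases j <;> rfl

theorem fl_fl (M : Matrix (Fin 3) (Fin 3) K) : fl (fl M) = M := by ext i j; simp [fl]

theorem det_fl (M : Matrix (Fin 3) (Fin 3) K) : (fl M).det = M.det := by
  rw [fl, show (Fin.rev : Fin 3 → Fin 3) = Fin.revPerm from rfl, det_submatrix_equiv_self,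
    det_transpose]

/-- The underlying map of the graph automorphism. -/
def τf (g : G3) : G3 :=
  ⟨fl g.inv, fl g.val, by rw [← fl_mul, g.val_inv, fl_one], by rw [← fl_mul, g.inv_val, fl_one]⟩

variable (p) in
/-- The graph automorphism. -/
def τ3 : MulAut G3 where
  toFun := τf
  invFun := τf
  left_inv g := Units.ext (fl_fl _)
  right_inv g := Units.ext (fl_fl _)
  map_mul' g h := Units.ext (fl_mul _ _)

theorem τ3_sq : τ3 p ^ 2 = 1 := MulEquiv.ext fun g => Units.ext (fl_fl _)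

theorem τ3_cases {σ : MulAut G3} (h : σ ∈ zpowers (τ3 p)) : σ = 1 ∨ σ = τ3 p := by
  obtain ⟨k, rfl⟩ := (mem_powers_iff_mem_zpowers).2 h
  simp only
  rw [pow_eq_pow_mod _ τ3_sq]
  rcases Nat.mod_two_eq_zero_or_one k with e | e <;> simp [e]

theorem det_τ3 (g : G3) : GeneralLinearGroup.det (τ3 p g) = (GeneralLinearGroup.det g)⁻¹ := by
  rw [← map_inv]
  exact Units.ext (det_fl _)

theorem τ3_ι (h2 : p ≠ 2) (x : He K) : τ3 p (ι3 h2 x) = ι3 h2 (act ⟨0, -1, -1, 0⟩ x) := by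
  refine Units.ext ?_
  change fl ((ι3 h2 x)⁻¹).val = _
  rw [← map_inv, ι3_val, ι3_val]
  ext i j
  fin_cases i <;> fin_cases j <;> simp [fl, M2.det, mul_comm] <;> rfl

theorem ι3_conj (h2 : p ≠ 2) {m : M2 K} {g : G3} (h : ∀ x, ι3 h2 (act m x) = g * ι3 h2 x * g⁻¹) :
    m.b = 0 ∧ m.c = 0 ∧ (GeneralLinearGroup.det g = 1 → ∃ t, m.a = m.d * t ^ 3) := by
  have k : ∀ x i j, ((ι3 h2 (act m x)).val * g.val) i j = (g.val * (ι3 h2 x).val) i j := fun x i j => by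
    rw [← Units.val_mul, h, inv_mul_cancel_right, Units.val_mul]
  have hd := g.det_ne_zero
  have e : ((GeneralLinearGroup.det g : Kˣ) : K) = g.val.det := rfl
  generalize g.val = M at k hd e
  have a1 := k ⟨1, 0, 0⟩ 2 1
  have a2 := k ⟨0, 1, 0⟩ 2 2
  have a3 := k ⟨1, 0, 0⟩ 1 1
  have a4 := k ⟨1, 0, 0⟩ 0 1
  have a5 := k ⟨1, 0, 0⟩ 1 2
  have a6 := k ⟨0, 1, 0⟩ 1 2
  have a7 := k ⟨0, 1, 0⟩ 0 1
  simp [ι3_val, Matrix.mul_apply, Fin.sum_univ_three] at a1 a2 a3 a4 a5 a6 a7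
  simp only [a1, a2, mul_zero, add_zero, left_eq_add, right_eq_add] at a3 a4 a7
  rw [det_fin_three] at hd e
  simp only [a1, a2, a3, mul_zero, zero_mul, add_zero, sub_zero, ne_eq, mul_eq_zero, not_or] at hd e
  refine ⟨by simpa [hd.1.2] using a7, by simpa [hd.2] using a5, fun h1 => ⟨(M 1 1)⁻¹, ?_⟩⟩
  rw [h1, Units.val_one] at e
  have := hd.1.2
  field_simp
  have b1 : M 0 0 = m.a * M 1 1 := by linear_combination -a4
  have b2 : M 1 1 = m.d * M 2 2 := by linear_combination -a6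
  rw [b1] at e
  linear_combination m.a * M 1 1 ^ 2 * b2 - m.d * e

theorem ι3_rad (h2 : p ≠ 2) {x : He K} {c : K} {g : G3} (h : ι3 h2 ⟨0, 0, c⟩ = g * ι3 h2 x * g⁻¹) :
    x.a = 0 ∨ x.b = 0 := by
  have k : (ι3 h2 x).val - 1 = g⁻¹.val * ((ι3 h2 ⟨0, 0, c⟩).val - 1) * g.val := by
    rw [h, mul_sub, sub_mul, mul_one, Units.inv_mul, ← Units.val_mul, ← Units.val_mul]
    congr 2; group
  have k2 : ((ι3 h2 x).val - 1) * ((ι3 h2 x).val - 1) = 0 := by
    have : ((ι3 h2 ⟨0, 0, c⟩).val - 1) * ((ι3 h2 ⟨0, 0, c⟩).val - 1) = 0 := by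
      ext i j
      fin_cases i <;> fin_cases j <;> simp [ι3_val, Matrix.mul_apply, Fin.sum_univ_three]
    rw [k, mul_assoc, mul_assoc, ← mul_assoc g.val, ← mul_assoc g.val, Units.mul_inv, one_mul,
      ← mul_assoc _ _ g.val, this, zero_mul, mul_zero]
  simpa [ι3_val, Matrix.mul_apply, Fin.sum_univ_three] using congrFun (congrFun k2 0) 2

theorem card_G3 (h2 : p ≠ 2) : ¬ p ^ 4 ∣ Nat.card G3 * 2 := fun h => by
  have h1 := hp.out
  rw [Matrix.card_GL_field, Fin.prod_univ_three, ZMod.card] at h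
  have e : (p ^ 3 - p ^ (0 : Fin 3).val) * (p ^ 3 - p ^ (1 : Fin 3).val) *
      (p ^ 3 - p ^ (2 : Fin 3).val) * 2 = p ^ 3 * ((p ^ 3 - 1) * (p ^ 2 - 1) * (p ^ 1 - 1) * 2) := by
    have k : ∀ n, 1 ≤ p ^ n := fun n => Nat.one_le_pow _ _ h1.pos
    have k1 : p ≤ p ^ 3 := Nat.le_self_pow (by norm_num) p
    have k2 : p ^ 2 ≤ p ^ 3 := Nat.pow_le_pow_right h1.pos (by norm_num)
    simp only [Fin.val_zero, Fin.val_one, Fin.val_two, pow_zero, pow_one]
    zify [k 3, k 2, k1, k2, h1.pos]; ring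
  rw [e, pow_succ, Nat.mul_dvd_mul_iff_left (pow_pos h1.pos _)] at h
  have k : ∀ n, ¬ p ∣ p ^ (n + 1) - 1 := fun n e => h1.one_lt.ne' (Nat.dvd_one.1
    ((Nat.dvd_sub_iff_right (Nat.one_le_pow _ _ h1.pos) (dvd_pow_self p n.succ_ne_zero)).1 e))
  simp only [h1.dvd_mul, k 0, k 1, k 2, false_or] at h
  exact h2 ((Nat.prime_dvd_prime_iff_eq h1 Nat.prime_two).1 h)

variable (p) in
/-- The extension by the graph automorphism. -/
abbrev Γ3 := G3 ⋊[(zpowers (τ3 p)).subtype] (zpowers (τ3 p))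

variable (p) in
/-- The four models. -/
def H3 (a b : Prop) : Subgroup (Γ3 p) where
  carrier := {x | (a → GeneralLinearGroup.det x.left = 1) ∧ (b → x.right = 1)}
  one_mem' := ⟨fun _ => map_one _, fun _ => rfl⟩
  mul_mem' {x y} hx hy := ⟨fun h => by
    rw [SemidirectProduct.mul_left, map_mul, hx.1 h, one_mul, coe_subtype]
    rcases τ3_cases x.right.2 with e | e <;> simp [e, det_τ3, hy.1 h],
    fun h => by rw [SemidirectProduct.mul_right, hx.2 h, hy.2 h, mul_one]⟩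
  inv_mem' {x} hx := ⟨fun h => by
    rw [SemidirectProduct.inv_left, coe_subtype]
    rcases τ3_cases x.right⁻¹.2 with e | e <;> rw [e] <;> simp [det_τ3, hx.1 h],
    fun h => by rw [SemidirectProduct.inv_right, hx.2 h, inv_one]⟩

theorem realizable_ax (h2 : p ≠ 2) {E : Dat p} (hE : E.Ax) : ∃ D : Dat p, D.Rz h2 ∧ E.Is D := by
  have two := two_ne h2
  have : Finite (Γ3 p) := .of_equiv _ SemidirectProduct.equivProd.symm
  let H := H3 p (¬ E.Φ1) (¬ E.Φ2)
  let ι : He K →* H := (SemidirectProduct.inl.comp (ι3 h2)).codRestrict H fun x =>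
    ⟨fun _ => Units.ext (by simp [ι3_val, det_fin_three]), fun _ => rfl⟩
  have cj : ∀ (g : H) (x y : He K), ι y = g * ι x * g⁻¹ ↔
      ι3 h2 y = g.1.left * g.1.right.1 (ι3 h2 x) * g.1.left⁻¹ := fun g x y => by
    rw [eq_mul_inv_iff_mul_eq, eq_mul_inv_iff_mul_eq, Subtype.ext_iff, SemidirectProduct.ext_iff]
    change (ι3 h2 y * g.1.left = _ * g.1.right.1 (ι3 h2 x) ∧ 1 * g.1.right = g.1.right * 1) ↔ _
    simp
  obtain ⟨D, h1, h3, h4⟩ := exists_dat h2 (ι := ι) (injective_of h2 fun e => by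
      have : (ι3 h2 ⟨0, 0, 2⟩).val 0 2 = (1 : G3).val 0 2 := congrArg (fun x : H => x.1.left.val 0 2) e
      simp [ι3_val, two] at this) fun h => card_G3 h2 (h.trans (H.card_subgroup_dvd_card.trans (by
        rw [SemidirectProduct.card, Nat.card_zpowers]
        exact mul_dvd_mul_left _ (orderOf_dvd_of_pow_eq_one τ3_sq))))
  simp only [cj] at h3 h4
  have mk : ∀ g : G3, (¬ E.Φ1 → GeneralLinearGroup.det g = 1) → ∃ x : H, x.1.left = g ∧
      x.1.right = 1 := fun g h => ⟨⟨.inl g, h, fun _ => rfl⟩, rfl, rfl⟩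
  have hA : D.Ax := fun v => by
    refine ⟨fun hv => ⟨D.ne hv, ?_⟩, ?_⟩
    · obtain ⟨-, c, c', g, e⟩ := (h4 v).1 hv
      rcases τ3_cases g.1.right.2 with k | k <;> rw [k] at e
      · exact ι3_rad h2 e
      · rw [τ3_ι] at e
        simpa [or_comm] using ι3_rad h2 e
    · have k : ∀ (w : K × K) (M : Matrix (Fin 3) (Fin 3) K), w ≠ 0 → M.det = 1 →
          (ι3 h2 ⟨0, 0, 2⟩).val * M = M * (ι3 h2 ⟨w.1, w.2, 0⟩).val → w ∈ D.R := fun w M h5 h6 h7 => by
        obtain ⟨x, x1, x2⟩ := mk (GeneralLinearGroup.mkOfDetNeZero M (by simp [h6]))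
          fun _ => Units.ext h6
        refine (h4 w).2 ⟨h5, 2, 0, x, ?_⟩
        rw [x1, x2, eq_mul_inv_iff_mul_eq]
        exact Units.ext h7
      rintro ⟨n, e | e⟩
      · convert D.smul (k (0, 1) !![0, 1, 0; -1, 0, 0; 0, 0, 1] (by simp) (by simp [det_fin_three])
          (by simp [ι3_val, two])) (t := v.2) fun e' => n (Prod.ext e e') using 1
        ext <;> simp [e]
      · convert D.smul (k (1, 0) !![1, 0, 0; 0, 0, -1; 0, 1, 0] (by simp) (by simp [det_fin_three])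
          (by simp [ι3_val, two])) (t := v.1) fun e' => n (Prod.ext e' e) using 1
        ext <;> simp [e]
  have sw : ∀ {m : M2 K} {g : G3}, (∀ x, ι3 h2 (act m x) = g * τ3 p (ι3 h2 x) * g⁻¹) →
      m.a = 0 := fun {m g} e => by
    simpa using (ι3_conj h2 (m := m * ⟨0, -1, -1, 0⟩) (g := g) fun x => by
      rw [act_mul, e, τ3_ι, ← act_mul]; congr 3; ext <;> simp [M2.det]).1
  refine ⟨D, h1, Dat.is_of_ax hE hA ⟨fun k => ?_, fun ⟨x, y, k1, k2⟩ => by_contra fun n => k2 ?_⟩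
    ⟨fun k => ⟨-1, -1, (h3 _).2 ⟨⟨.inr ⟨_, mem_zpowers _⟩, fun _ => map_one _, fun n => (n k).elim⟩,
      fun x => by simp [τ3_ι]⟩⟩, fun ⟨x, y, k1⟩ => by_contra fun n => ?_⟩⟩
  · obtain ⟨x, y, k1, k2⟩ := id k
    obtain ⟨x0, y0, -⟩ := hE.diag.1 k1
    obtain ⟨g, g1, g2⟩ := mk (GeneralLinearGroup.mkOfDetNeZero !![x * y, 0, 0; 0, y, 0; 0, 0, 1]
      (by simp [det_fin_three, x0, y0])) fun n => (n k).elim
    refine ⟨x, y, (h3 _).2 ⟨g, fun z => ?_⟩, k2⟩
    rw [g1, g2, eq_mul_inv_iff_mul_eq]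
    ext i j
    fin_cases i <;> fin_cases j <;>
      simp [GeneralLinearGroup.mkOfDetNeZero, ι3_val, Matrix.mul_apply, Fin.sum_univ_three, M2.det] <;>
      ring
  · obtain ⟨g, e⟩ := (h3 _).1 k1
    rcases τ3_cases g.1.right.2 with k | k <;> rw [k] at e
    · exact (ι3_conj h2 e).2.2 (g.2.1 n)
    · exact ((hA.diag.1 k1).1 (sw e)).elim
  · obtain ⟨g, e⟩ := (h3 _).1 k1
    rw [g.2.2 n] at e
    exact D.det_ne k1 (by simp [M2.det, show x = 0 from (ι3_conj h2 e).1])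

end Cfsg.Lib.RV
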