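import Mathlib

/-!
# Homologies of order four in `GL₃(13)`
-/

set_option autoImplicit false

namespace Cfsg.Lib.RV

/-- The field with 13 elements. -/
abbrev K13 : Type := ZMod 13

/-- Column vectors. -/
abbrev V3 : Type := K13 × K13 × K13

/-- Square matrices of degree three. -/
@[ext] structure M3 where
  (a b c d e f g h k : K13)
  deriving DecidableEq

namespace M3

instance instMul : Mul M3 := ⟨fun m n =>
  ⟨m.a * n.a + m.b * n.d + m.c * n.g, m.a * n.b + m.b * n.e + m.c * n.h, m.a * n.c + m.b * n.f + m.c * n.k,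
   m.d * n.a + m.e * n.d + m.f * n.g, m.d * n.b + m.e * n.e + m.f * n.h, m.d * n.c + m.e * n.f + m.f * n.k,
   m.g * n.a + m.h * n.d + m.k * n.g, m.g * n.b + m.h * n.e + m.k * n.h, m.g * n.c + m.h * n.f + m.k * n.k⟩⟩

instance instOne : One M3 := ⟨⟨1, 0, 0, 0, 1, 0, 0, 0, 1⟩⟩

theorem mul_def (m n : M3) : m * n =
  ⟨m.a * n.a + m.b * n.d + m.c * n.g, m.a * n.b + m.b * n.e + m.c * n.h, m.a * n.c + m.b * n.f + m.c * n.k,
   m.d * n.a + m.e * n.d + m.f * n.g, m.d * n.b + m.e * n.e + m.f * n.h, m.d * n.c + m.e * n.f + m.f * n.k,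
   m.g * n.a + m.h * n.d + m.k * n.g, m.g * n.b + m.h * n.e + m.k * n.h, m.g * n.c + m.h * n.f + m.k * n.k⟩ := rfl

theorem one_def : (1 : M3) = ⟨1, 0, 0, 0, 1, 0, 0, 0, 1⟩ := rfl

instance instMonoid : Monoid M3 where
  mul_assoc x y z := by ext <;> simp only [mul_def] <;> ring
  one_mul x := by ext <;> simp [mul_def, one_def]
  mul_one x := by ext <;> simp [mul_def, one_def]

/-- A matrix applied to a column. -/
def ap (m : M3) (v : V3) : V3 :=
  (m.a * v.1 + m.b * v.2.1 + m.c * v.2.2, m.d * v.1 + m.e * v.2.1 + m.f * v.2.2, m.g * v.1 + m.h * v.2.1 + m.k * v.2.2)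

/-- A row multiplied by a matrix. -/
def tp (m : M3) (v : V3) : V3 :=
  (v.1 * m.a + v.2.1 * m.d + v.2.2 * m.g, v.1 * m.b + v.2.1 * m.e + v.2.2 * m.h, v.1 * m.c + v.2.1 * m.f + v.2.2 * m.k)

theorem mul_ap (m n : M3) (v : V3) : (m * n).ap v = m.ap (n.ap v) := by
  ext <;> simp only [mul_def, ap] <;> ring

theorem one_ap (v : V3) : (1 : M3).ap v = v := by ext <;> simp [one_def, ap]

theorem ext_ap {m n : M3} (h : ∀ v, m.ap v = n.ap v) : m = n := by
  have h1 := h (1, 0, 0)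
  have h2 := h (0, 1, 0)
  have h3 := h (0, 0, 1)
  simp only [ap, mul_one, mul_zero, add_zero, zero_add, Prod.mk.injEq] at h1 h2 h3
  exact M3.ext h1.1 h2.1 h3.1 h1.2.1 h2.2.1 h3.2.1 h1.2.2 h2.2.2 h3.2.2

/-- The matrix `s + t v w`. -/
def rk (s t : K13) (v w : V3) : M3 :=
  ⟨s + t * v.1 * w.1, t * v.1 * w.2.1, t * v.1 * w.2.2, t * v.2.1 * w.1, s + t * v.2.1 * w.2.1, t * v.2.1 * w.2.2,
    t * v.2.2 * w.1, t * v.2.2 * w.2.1, s + t * v.2.2 * w.2.2⟩

theorem conj_rk {m n : M3} (h : m * n = 1) (s t : K13) (v w : V3) :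
    m * rk s t v w * n = rk s t (m.ap v) (n.tp w) := by
  obtain ⟨e1, e2, e3, e4, e5, e6, e7, e8, e9⟩ := M3.ext_iff.1 h
  simp only [mul_def, one_def] at e1 e2 e3 e4 e5 e6 e7 e8 e9
  ext <;> simp only [mul_def, rk, ap, tp]
  · linear_combination s * e1
  · linear_combination s * e2
  · linear_combination s * e3
  · linear_combination s * e4
  · linear_combination s * e5
  · linear_combination s * e6
  · linear_combination s * e7
  · linear_combination s * e8
  · linear_combination s * e9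

/-- The pairing. -/
def dt (w v : V3) : K13 := w.1 * v.1 + w.2.1 * v.2.1 + w.2.2 * v.2.2

theorem rk_mul (s t s' t' : K13) (v w w' : V3) :
    rk s t v w * rk s' t' v w' = rk (s * s') 1 v ((t * s') • w + (s * t' + t * t' * dt w v) • w') := by
  ext <;> simp only [mul_def, rk, dt, Prod.fst_add, Prod.snd_add, Prod.smul_fst, Prod.smul_snd, smul_eq_mul] <;> ring

theorem rk_pow {v w : V3} (h : dt w v = 0) (n : ℕ) : rk 1 1 v w ^ n = rk 1 n v w := by
  induction n with
  | zero => ext <;> simp [rk, one_def]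
  | succ n ih => rw [pow_succ, ih, rk_mul, h]; ext <;> simp [rk] <;> ring

theorem rk_smul (s t l : K13) (v w : V3) : rk s t (l • v) w = rk s t v (l • w) := by
  ext <;> simp only [rk, Prod.smul_fst, Prod.smul_snd, smul_eq_mul] <;> ring

/-- Evaluates an element of the field. -/
noncomputable def fK (x : K13) (k : K13 → Bool) : Bool :=
  Nat.rec (motive := fun _ => Bool) (k 0) (fun n _ => k (Fin.ofNat 13 (Nat.succ n))) (Fin.val x)

theorem fK_eq (x : K13) (k : K13 → Bool) : fK x k = k x := by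
  obtain ⟨_ | n, h⟩ := x
  · rfl
  · exact congrArg k (Fin.ext (Nat.mod_eq_of_lt h))

/-- Evaluates the entries. -/
noncomputable def frc (m : M3) (t : M3 → Bool) : Bool :=
  fK m.a fun a => fK m.b fun b => fK m.c fun c => fK m.d fun d => fK m.e fun e => fK m.f fun f => fK m.g fun g =>
    fK m.h fun h => fK m.k fun k => t ⟨a, b, c, d, e, f, g, h, k⟩

theorem frc_eq (m : M3) (t : M3 → Bool) : frc m t = t m := by simp only [frc, fK_eq]

/-- The twelfth power. -/
noncomputable def p12 (m : M3) (t : M3 → Bool) : Bool :=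
  frc m fun m => frc (m * m * m) fun m => frc (m * m) fun m => frc (m * m) t

theorem p12_eq (m : M3) (t : M3 → Bool) : p12 m t = t (m ^ 12) := by
  simp only [p12, frc_eq, pow_succ, pow_zero, one_mul, mul_assoc]

/-- Products of letters. -/
noncomputable def wr (L : ℕ → M3) (w : List ℕ) : (M3 → Bool) → Bool :=
  List.rec (motive := fun _ => (M3 → Bool) → Bool) (fun t => t 1) (fun i _ ih t => ih fun m => frc (L i * m) t) w

theorem wr_eq (L : ℕ → M3) (w : List ℕ) (t : M3 → Bool) : wr L w t = t (w.map L).prod := by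
  induction w generalizing t with
  | nil => rfl
  | cons i w ih => exact (ih _).trans (frc_eq _ _)

/-- The words. -/
def wl : List (List ℕ) := [[0, 1], [1, 2], [0, 1], [0, 1, 2], [0, 0, 1, 0, 1, 2], [0, 0, 1, 2, 1], [0, 1, 2, 1, 2],
  [1, 1, 1, 2, 1, 2, 2, 2], [0, 1, 2, 2], [0, 0, 0, 1, 0, 1], [1, 2], [0, 0, 0, 1, 0, 1], [1, 2]]

/-- The letters. -/
def lt (i r s : K13) (j : ℕ) : M3 :=
  [rk i (-1 - i) (1, 0, 0) (1, 0, 0), rk i (-1 - i) (r, 0, 1) (s, 0, 1 - r * s)].getD j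
    (rk i (-1 - i) (0, 1, i) (0, 7, 6 * i))

theorem chk : ∀ i r s : K13, i * i = -1 → r ≠ 0 → wr (lt i r s) (wl.getD (r * s).val []) (fun m => p12 m fun u =>
    decide (u ≠ 1) && p12 u fun v => decide (v * u = 1)) = true := by decide +kernel

theorem dt_tp (w : V3) (m : M3) (v : V3) : dt (m.tp w) v = dt w (m.ap v) := by simp only [dt, tp, ap]; ring

theorem dt_smul (l : K13) (w v : V3) : dt (l • w) v = dt w (l • v) := by
  simp only [dt, Prod.smul_fst, Prod.smul_snd, smul_eq_mul]; ring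

instance instFact13 : Fact (Nat.Prime 13) := ⟨by norm_num⟩

set_option maxHeartbeats 800000 in
theorem lin {W : Set M3} (mul : ∀ {m n}, m ∈ W → n ∈ W → m * n ∈ W) (one : 1 ∈ W)
    (cop : ∀ {m}, m ∈ W → m ^ 13 = 1 → m = 1) {i : K13} (hi : i * i = -1)
    (hT : rk i (-1 - i) (1, 0, 0) (1, 0, 0) ∈ W) (h1 : rk (-1) 2 (0, 1, 0) (0, 1, 0) ∈ W)
    (h3 : rk (-1) 2 (0, 1, i) (0, 7, 6 * i) ∈ W)
    (fus : ∀ v ∈ [((0, 1, 0) : V3), (0, 1, i)], ∃ m ∈ W, ∃ n ∈ W, m * n = 1 ∧ n * m = 1 ∧ ∃ l : K13, m.ap (1, 0, 0) = l • v) :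
    False := by
  have t : (13 : K13) = 0 := rfl
  let H (v w : V3) : Prop := rk i (-1 - i) v w ∈ W ∧ dt w v = 1
  have cj : ∀ {v w m n}, H v w → m ∈ W → n ∈ W → m * n = 1 → n * m = 1 → H (m.ap v) (n.tp w) :=
    fun {v w m n} h a b c d => ⟨conj_rk c _ _ _ _ ▸ mul (mul a h.1) b, by rw [dt_tp, ← mul_ap, d, one_ap, h.2]⟩
  have sm : ∀ {v w} {l : K13}, H (l • v) w → H v (l • w) := fun h => ⟨rk_smul _ _ _ _ _ ▸ h.1, (dt_smul _ _ _).trans h.2⟩
  have un : ∀ {v w w'}, H v w → rk (-1) 2 v w' ∈ W → dt w' v = 1 → w = w' := fun {v w w'} h a b => by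
    have c : rk i (-1 - i) v w * rk i (-1 - i) v w = rk (-1) 2 v w := by
      rw [rk_mul, h.2, hi, ← add_smul, show (-1 - i) * i + (i * (-1 - i) + (-1 - i) * (-1 - i) * 1) = 2 by
        linear_combination -hi]
      ext <;> simp [rk] <;> ring
    have d := mul (c ▸ mul h.1 h.1) a
    rw [rk_mul, h.2, show (-1 : K13) * -1 = 1 from rfl] at d
    have k := h.2
    have e := cop d (by
      rw [rk_pow (by simp only [dt, Prod.fst_add, Prod.snd_add, Prod.smul_fst, Prod.smul_snd, smul_eq_mul] at b k ⊢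
                     linear_combination 2 * b - 2 * k)]
      ext <;> simp [rk, one_def, t])
    obtain ⟨e1, e2, e3, e4, e5, e6, e7, e8, e9⟩ := M3.ext_iff.1 e
    simp only [rk, one_def, dt, Prod.fst_add, Prod.snd_add, Prod.smul_fst, Prod.smul_snd, smul_eq_mul] at e1 e2 e3 e4 e5 e6 e7 e8 e9 k
    ext
    · linear_combination 6 * (w.1 * e1 + w.2.1 * e4 + w.2.2 * e7) + 12 * (w.1 - w'.1) * k + (w.1 - w'.1) * t
    · linear_combination 6 * (w.1 * e2 + w.2.1 * e5 + w.2.2 * e8) + 12 * (w.2.1 - w'.2.1) * k + (w.2.1 - w'.2.1) * t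
    · linear_combination 6 * (w.1 * e3 + w.2.1 * e6 + w.2.2 * e9) + 12 * (w.2.2 - w'.2.2) * k + (w.2.2 - w'.2.2) * t
  have H0 : H (1, 0, 0) (1, 0, 0) := ⟨hT, by simp [dt]⟩
  obtain ⟨m, m1, n, n1, m2, n2, l, hl⟩ := fus _ List.mem_cons_self
  obtain ⟨m', m1', n', n1', m2', n2', l', hl'⟩ := fus (0, 1, i) (by simp)
  have a1 := sm (hl ▸ cj H0 m1 n1 m2 n2)
  have a2 := un a1 h1 (by simp [dt])
  have a3 := sm (hl' ▸ cj H0 m1' n1' m2' n2')
  rw [un a3 h3 (by simp only [dt]; linear_combination 6 * hi)] at a3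
  rw [a2] at a1
  have r1 : rk (-1) 2 (0, 1, 0) (0, 1, 0) * rk (-1) 2 (0, 1, 0) (0, 1, 0) = 1 := by decide
  have a4 := cj a3 h1 h1 r1 r1
  have l0 : l ≠ 0 := by rintro rfl; simpa using congrArg (·.2.1) a2
  have key : ∀ {u w}, H u w → u.1 = 0 → w.1 = 0 → (m.ap u).1 = 0 ∨ (m.ap u).2.2 = 0 := fun {u w} h b c => by
    by_contra! k
    have d := cj h m1 n1 m2 n2
    have e1 : (m.ap u).2.1 = 0 := by
      have := dt_tp (1, 0, 0) n (m.ap u)
      rw [← mul_ap, n2, one_ap] at this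
      have e := congrArg (dt · (m.ap u)) a2
      simp only [dt, Prod.smul_fst, Prod.smul_snd, smul_eq_mul] at e this
      linear_combination l * this - e + l * b
    have e2 : (n.tp w).2.1 = 0 := by
      have := dt_tp w n (m.ap (1, 0, 0))
      rw [← mul_ap, n2, one_ap, hl] at this
      simpa [dt, c, l0] using this
    generalize m.ap u = v, n.tp w = z at d e1 e2 k
    obtain ⟨r, _, s⟩ := v
    obtain ⟨r', _, s'⟩ := z
    obtain rfl := e1
    obtain rfl := e2
    have f := sm (l := s) (v := (r / s, 0, 1)) (w := (r', 0, s')) (by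
      convert d using 1; ext <;> simp [mul_div_cancel₀ _ k.2])
    have f2 : s • ((r', 0, s') : V3) = (s * r', 0, 1 - r / s * (s * r')) := by
      have := f.2
      ext <;> simp [dt] at this ⊢
      linear_combination this
    rw [f2] at f
    have g := chk i (r / s) (s * r') hi (div_ne_zero k.1 k.2)
    simp only [wr_eq, p12_eq, Bool.and_eq_true, decide_eq_true_eq, ← pow_succ] at g
    have pw : ∀ {x} (j : ℕ), x ∈ W → x ^ j ∈ W := fun j h => by
      induction j with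
      | zero => rwa [pow_zero]
      | succ j ih => rw [pow_succ]; exact mul ih h
    refine g.1 (cop (pw _ (List.prod_induction (· ∈ W) (fun _ _ => mul) one (List.forall_mem_map.2 fun j _ => ?_))) g.2)
    rcases j with _ | _ | j
    exacts [hT, f.1, a3.1]
  have b1 := key a1 rfl rfl
  have b3 := key a3 rfl rfl
  have b4 := key a4 (by simp [rk, ap]) (by simp [rk, tp])
  obtain ⟨e1, -, -, -, -, -, -, -, e9⟩ := M3.ext_iff.1 m2
  have i0 : i ≠ 0 := by rintro rfl; simp at hi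
  simp [ap, rk, mul_def, one_def] at b1 b3 b4 hl e1 e9
  have q : ∀ {a b c x y z : K13}, a = 0 → a * x + b * y + c * z = 1 → ¬ (b = 0 ∧ b + c * i = 0) ∧
      ¬ (b = 0 ∧ b * (-1 + 2) + -(c * i) = 0) ∧ ¬ (b + c * i = 0 ∧ b * (-1 + 2) + -(c * i) = 0) := fun {a b c x y z} h k => by
    have s : b = 0 → c * i ≠ 0 := fun e => mul_ne_zero (by rintro rfl; simp [h, e] at k) i0
    refine ⟨fun e => s e.1 (by linear_combination e.2 - e.1), fun e => s e.1 (by linear_combination e.1 - e.2), fun e => ?_⟩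
    have : b = 0 := by linear_combination 7 * (e.1 + e.2) - b * t
    exact s this (by linear_combination e.1 - this)
  obtain ⟨c1, c2, c3⟩ := q hl.1 e1
  obtain ⟨d1, d2, d3⟩ := q hl.2.2 e9
  rcases b1 with b1 | b1 <;> rcases b3 with b3 | b3 <;> rcases b4 with b4 | b4
  exacts [c1 ⟨b1, b3⟩, c1 ⟨b1, b3⟩, c2 ⟨b1, b4⟩, d3 ⟨b3, b4⟩, c3 ⟨b3, b4⟩, d2 ⟨b1, b4⟩, d1 ⟨b1, b3⟩, d1 ⟨b1, b3⟩]

end M3

end Cfsg.Lib.RV
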