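import Cfsg.Agent.Lib.ZStar.Main
import Cfsg.Agent.Lib.Coprime.Sylow
import Cfsg.Agent.Lib.Core.PPrimeCore

/-!
# A Sylow subgroup normalised by a central product `4 ∘ Q₈`
-/

set_option autoImplicit false

namespace Cfsg.Lib.RV

open Subgroup Cfsg.Lib.Transfer

variable {G : Type*} [Group G] [Finite G] {p : ℕ} [hp : Fact p.Prime]

omit hp in
theorem norm_zp {g x : G} (h : g * x * g⁻¹ ∈ zpowers x) : g ∈ normalizer (zpowers x : Set G) :=
  mem_normalizer_of_conj_le (by rwa [conj_zpowers, zpowers_le])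

omit hp in
theorem dec {P : Subgroup G} (ho : ∀ u ∈ P, Odd (orderOf u)) {w c : G} (w2 : w * w = 1)
    (hw : w ∈ normalizer (P : Set G)) (hc : c ∈ P) : ∃ s ∈ P, w * s * w⁻¹ = s⁻¹ ∧ Commute (s⁻¹ * c) w := by
  have wi := inv_eq_of_mul_eq_one_right w2
  have hd : c * (w * c * w⁻¹)⁻¹ ∈ P := mul_mem hc (inv_mem ((hw c).1 hc))
  have e1 : w * c * w⁻¹ = (c * (w * c * w⁻¹)⁻¹)⁻¹ * c := by group
  have e2 : w * (c * (w * c * w⁻¹)⁻¹) * w⁻¹ = (c * (w * c * w⁻¹)⁻¹)⁻¹ := by
    calc _ = w * c * w⁻¹ * (w * w) * c⁻¹ * (w * w)⁻¹ := by group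
      _ = _ := by rw [w2]; group
  generalize c * (w * c * w⁻¹)⁻¹ = d at hd e1 e2
  obtain ⟨k, hk⟩ := ZStar.exists_eq_sq_pow_of_odd (ho d hd)
  rw [← sq, ← pow_mul, mul_comm, pow_mul, sq] at hk
  have e3 : w * d ^ k * w⁻¹ = (d ^ k)⁻¹ := by rw [← conj_pow, e2, inv_pow]
  refine ⟨d ^ k, pow_mem hd k, e3, mul_inv_eq_iff_eq_mul.1 ?_ |>.symm⟩
  rw [← conj_mul, ← conj_inv, e3, e1, inv_inv]
  generalize d ^ k = s at hk
  rw [hk]; group

theorem zp_eq {K : Subgroup G} (hK : Nat.card K ∣ p) {u : G} (hu : u ∈ K) (u1 : u ≠ 1) : zpowers u = K ∧ orderOf u = p :=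
  have e := (hp.out.eq_one_or_self_of_dvd _ ((K.orderOf_dvd_natCard hu).trans hK)).resolve_left (mt orderOf_eq_one_iff.1 u1)
  ⟨eq_of_le_of_card_ge (zpowers_le.2 hu) (by rw [Nat.card_zpowers, e]; exact Nat.le_of_dvd hp.out.pos hK), e⟩

/-- The hypotheses. -/
structure LH (p : ℕ) (z x a b t : G) : Prop where
  h2 : p ≠ 2
  h3 : p ^ 3 ∣ Nat.card G
  hz : orderOf z = 2
  hC : ¬ p ^ 2 ∣ Nat.card (centralizer ({z} : Set G))
  hx : orderOf x = p
  xz : Commute x z
  hu : ∀ u, Commute u z → Commute u x → u * u = 1 → u = 1 ∨ u = z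
  hi : ∀ u, Commute u z → u * x * u⁻¹ = x⁻¹ → u * u = 1 → IsConj z u
  ax : Commute a x
  bx : Commute b x
  tx : t * x * t⁻¹ = x⁻¹
  a2 : a * a = z
  b2 : b * b = z
  ab : b * a * b⁻¹ = a⁻¹
  ta : Commute t a
  tb : Commute t b
  t2 : t * t = 1 ∨ t * t = z

namespace LH

variable {z x a b t : G} (h : LH p z x a b t)
include h

omit [Finite G] hp in
theorem z2 : z * z = 1 := (sq z).symm.trans (h.hz ▸ pow_orderOf_eq_one z)

omit [Finite G] hp in
theorem symm : LH p z x b a t :=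
  { h with
    ax := h.bx, bx := h.ax, a2 := h.b2, b2 := h.a2, ta := h.tb, tb := h.ta
    ab := by
      calc a * b * a⁻¹ = b⁻¹ * (b * a * b⁻¹) * (b * b) * a⁻¹ := by group
        _ = _ := by rw [h.ab, h.b2, ← h.a2]; group }

theorem exists_P : ∃ P : Subgroup G, IsPGroup p P ∧ x ∈ P ∧ (∀ u ∈ P, Commute u x) ∧ ¬ P ≤ zpowers x ∧
    a ∈ normalizer (P : Set G) ∧ b ∈ normalizer (P : Set G) ∧ t ∈ normalizer (P : Set G) := by
  have mc : ∀ {g}, g ∈ centralizer (zpowers x : Set G) ↔ Commute g x := by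
    intro g; rw [zpowers_eq_closure, centralizer_closure, mem_centralizer_singleton_iff]; rfl
  have px : IsPGroup p (zpowers x) := .of_card (n := 1) (by rw [Nat.card_zpowers, h.hx, pow_one])
  have p2 : ∀ {g : G}, g * g = 1 ∨ g * g = z → IsPGroup 2 (zpowers g) := fun {g} e =>
    IsPGroup.of_card_dvd_pow (n := 2) (by
      rw [Nat.card_zpowers, orderOf_dvd_iff_pow_eq_one, show 2 ^ 2 = 2 * 2 from rfl, pow_mul, sq g, sq]
      rcases e with e | e <;> rw [e]; exacts [mul_one 1, h.z2])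
  have cm : ∀ {g u : G}, Commute g u → g ∈ normalizer (zpowers u : Set G) := fun e =>
    norm_zp (by rw [e.eq, mul_inv_cancel_right]; exact mem_zpowers _)
  have hT : IsPGroup 2 ↥(zpowers t ⊔ (zpowers b ⊔ zpowers a)) := (p2 h.t2).to_sup_of_normal_right'
    ((p2 (.inr h.b2)).to_sup_of_normal_right' (p2 (.inr h.a2)) (zpowers_le.2 (norm_zp (h.ab ▸ inv_mem (mem_zpowers a)))))
    (Core.le_normalizer_sup (zpowers_le.2 (cm h.tb)) (zpowers_le.2 (cm h.ta)))
  have hN : zpowers t ⊔ (zpowers b ⊔ zpowers a) ≤ normalizer (zpowers x : Set G) :=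
    sup_le (zpowers_le.2 (norm_zp (h.tx ▸ inv_mem (mem_zpowers x)))) (sup_le (zpowers_le.2 (cm h.bx)) (zpowers_le.2 (cm h.ax)))
  set C := centralizer (zpowers x : Set G)
  have xC : zpowers x ≤ C := zpowers_le.2 (mc.2 (.refl x))
  have xO : zpowers x ≤ (oddCore C).map C.subtype := (Core.le_map_subtype_iff xC).2 (Core.le_pPrimeCore
    (normal_subgroupOf_of_le_normalizer fun g e => cm (mc.1 e)) (by
      rw [Core.card_subgroupOf_of_le xC, Nat.card_zpowers, h.hx]; exact (Nat.coprime_primes hp.out Nat.prime_two).2 h.h2))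
  obtain ⟨P, a1, a2, a3, a4, a5⟩ := Coprime.exists_invariant_sylowIn_ge (p := p)
    ((Core.le_normalizer_centralizer hN).trans (Core.normalizer_le_normalizer_map_subtype (oddCore C))) (by
      obtain ⟨n, e⟩ := hT.exists_card_eq
      rw [e, Core.card_map_subtype]
      exact (Core.pPrimeCore_coprime 2 C).symm.pow_left n) (.inl (have := hT.isNilpotent; inferInstance)) xO px hN
  refine ⟨P, a3, a1 (mem_zpowers x), fun u e => mc.1 (map_subtype_le _ (a2 e)), fun e => ?_,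
    a5 (mem_sup_right (mem_sup_right (mem_zpowers a))), a5 (mem_sup_right (mem_sup_left (mem_zpowers b))),
    a5 (mem_sup_left (mem_zpowers t))⟩
  obtain rfl := a1.antisymm e
  have iz : IsIsolatedInvolution (⟨z, mc.2 h.xz.symm⟩ : C) := ⟨by rw [orderOf_mk, h.hz], fun g e => Subtype.ext <|
    (h.hu _ (show Commute _ z from congrArg Subtype.val e.symm.eq) (mc.1 (g * ⟨z, mc.2 h.xz.symm⟩ * g⁻¹).2)
      (by simp only [coe_mul, coe_inv, conj_mul, h.z2, mul_one, mul_inv_cancel])).resolve_left fun k => by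
        simp only [coe_mul, coe_inv, conj_eq_one_iff] at k
        simpa [k] using h.hz⟩
  have c1 : C ⊓ centralizer {z} ⊔ (oddCore C).map C.subtype = C := le_antisymm (sup_le inf_le_left (map_subtype_le _))
    fun g e => by
      obtain ⟨c, k1, k2⟩ := ZStar.exists_commute_of_commute_map iz (QuotientGroup.mk' (oddCore C)) (g := ⟨g, e⟩) (by
        rw [commute_iff_eq, ← map_mul, ← map_mul, eq_comm, QuotientGroup.mk'_apply, QuotientGroup.mk'_apply,
          QuotientGroup.eq_iff_div_mem, div_eq_mul_inv, mul_inv_rev, ← mul_assoc]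
        exact ZStar.zstar iz _)
      have := mul_mem_sup (S := C ⊓ centralizer {z}) ⟨c.2, mem_centralizer_singleton_iff.2 (congrArg Subtype.val k1.eq)⟩
        (mem_map_of_mem C.subtype (QuotientGroup.eq.1 k2))
      simpa using this
  have c2 : ¬ p ∣ (zpowers x).relIndex C := by
    rw [← relIndex_mul_relIndex _ _ _ xO (map_subtype_le _), hp.out.dvd_mul, not_or]
    refine ⟨a4, fun k => h.hC ?_⟩
    replace k := (congrArg (p ∣ relIndex _ ·) c1).mpr k
    rw [Core.relIndex_sup_of_le_normalizer (inf_le_left.trans (Core.le_normalizer_map_subtype _))] at k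
    have := card_mul_relIndex (T := zpowers x) (H := C ⊓ centralizer {z})
      (le_inf xC (zpowers_le.2 (mem_centralizer_singleton_iff.2 h.xz)))
    rw [Nat.card_zpowers, h.hx] at this
    refine Dvd.dvd.trans ?_ (card_dvd_of_le (inf_le_right (a := C)))
    rw [← this, sq]
    exact mul_dvd_mul_left _ (k.trans (relIndex_dvd_of_le_left _ xO))
  obtain ⟨S, hS⟩ := px.exists_le_sylow
  have c3 : zpowers x = C ⊓ S := eq_of_not_dvd_relIndex_of_le c2 S.isPGroup'.to_inf_right inf_le_left (le_inf xC hS)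
  have c4 : p ^ 3 ∣ Nat.card S := (S.pow_dvd_card_of_pow_dvd_card h.h3)
  have : Nontrivial S := Finite.one_lt_card_iff_nontrivial.1
    (lt_of_lt_of_le (Nat.one_lt_pow (by decide) hp.out.one_lt) (Nat.le_of_dvd Nat.card_pos c4))
  have := S.isPGroup'.center_nontrivial
  obtain ⟨⟨w, w1⟩, w2⟩ := exists_ne (1 : center S)
  have w3 : ∀ g ∈ S, Commute g (w : G) := fun g e => congrArg Subtype.val (mem_center_iff.1 w1 ⟨g, e⟩)
  have w4 := (zp_eq (p := p) (by rw [Nat.card_zpowers, h.hx]) (c3 ▸ ⟨mc.2 (w3 x (hS (mem_zpowers x))).symm, w.2⟩ : (w : G) ∈ zpowers x)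
    fun e => w2 (Subtype.ext (Subtype.ext e))).1
  obtain ⟨k, e⟩ := w4.ge (mem_zpowers x)
  have c5 := card_dvd_of_le (c3.symm ▸ le_inf (fun g a => mc.2 (e ▸ (w3 g a).zpow_right k)) le_rfl : (S : Subgroup G) ≤ zpowers x)
  rw [Nat.card_zpowers, h.hx] at c5
  exact absurd (Nat.le_of_dvd hp.out.pos (c4.trans c5)) (not_le.2 (lt_self_pow₀ hp.out.one_lt (by decide)))

end LH

/-- The hypotheses together with the invariant subgroup. -/
structure LP (p : ℕ) (z x a b t : G) (P : Subgroup G) : Prop extends LH p z x a b t where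
  pP : IsPGroup p P
  xP : x ∈ P
  cP : ∀ u ∈ P, Commute u x
  nP : ¬ P ≤ zpowers x
  aP : a ∈ normalizer (P : Set G)
  bP : b ∈ normalizer (P : Set G)
  tP : t ∈ normalizer (P : Set G)

namespace LP

variable {z x a b t u w y : G} {P : Subgroup G} (h : LP p z x a b t P)
include h

omit [Finite G] hp in
theorem symm : LP p z x b a t P := { h.toLH.symm, h with aP := h.bP, bP := h.aP }

omit [Finite G] in
theorem odd (u : G) (hu : u ∈ P) : Odd (orderOf u) := by
  obtain ⟨k, e⟩ := (IsPGroup.iff_orderOf.1 h.pP) ⟨u, hu⟩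
  rw [orderOf_mk] at e
  exact e ▸ (hp.out.odd_of_ne_two h.h2).pow

omit [Finite G] hp in
theorem zP : z ∈ normalizer (P : Set G) := h.a2 ▸ mul_mem h.aP h.aP

omit [Finite G] hp in
theorem cen (hw : IsConj z w) : ¬ p ^ 2 ∣ Nat.card (centralizer ({w} : Set G)) := by
  obtain ⟨g, rfl⟩ := isConj_iff.1 hw
  have := conj_centralizer g (zpowers z)
  rw [conj_zpowers, zpowers_eq_closure, zpowers_eq_closure, centralizer_closure, centralizer_closure] at this
  rw [← this, card_conj]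
  exact h.hC

theorem fix (hw : IsConj z w) (hu : u ∈ P) (c : Commute u w) (u1 : u ≠ 1) :
    zpowers u = P ⊓ centralizer {w} ∧ orderOf u = p := by
  refine zp_eq ?_ ⟨hu, mem_centralizer_singleton_iff.2 c⟩ u1
  obtain ⟨n, e⟩ := (h.pP.to_inf_left (K := centralizer {w})).exists_card_eq
  have : n ≤ 1 := by
    by_contra k
    exact h.cen hw (((pow_dvd_pow p (by omega)).trans e.symm.dvd).trans (card_dvd_of_le inf_le_right))
  exact e ▸ (pow_dvd_pow p this).trans (pow_one p).dvd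

theorem fz (hu : u ∈ P) (c : Commute u z) : u ∈ zpowers x :=
  (h.fix (IsConj.refl z) h.xP h.xz fun e => hp.out.ne_one (by rw [← h.hx, e, orderOf_one])).1 ▸
    ⟨hu, mem_centralizer_singleton_iff.2 c⟩

omit [Finite G] in
theorem eq_one (hu : u ∈ P) (c : Commute u w) (e : w * u * w⁻¹ = u⁻¹) : u = 1 :=
  ZStar.eq_one_of_sq_of_odd (h.odd u hu) (by rwa [← c.eq, mul_inv_cancel_right, eq_inv_iff_mul_eq_one] at e)

theorem ix (wx : w * x * w⁻¹ = x⁻¹) (hu : u ∈ P) (c : Commute u w) (c' : Commute u z) : u = 1 := by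
  obtain ⟨k, rfl⟩ := h.fz hu c'
  exact h.eq_one hu c (by rw [← conj_zpow, wx, inv_zpow])

theorem two (w2 : w * w = 1) (wz : Commute w z) (wP : w ∈ normalizer (P : Set G))
    (h1 : ∀ u ∈ P, Commute u w → u = 1) (h2 : ∀ u ∈ P, Commute u (w * z) → u = 1) : False := h.nP fun u hu => by
  obtain ⟨s, a1, a2, a3⟩ := dec h.odd w2 wP hu
  obtain ⟨r, b1, b2, b3⟩ := dec h.odd (w := w * z) (by rw [wz.symm.mul_mul_mul_comm, w2, h.z2, mul_one])
    (mul_mem wP h.zP) hu
  obtain rfl := inv_mul_eq_one.1 (h1 _ (mul_mem (inv_mem a1) hu) a3)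
  obtain rfl := inv_mul_eq_one.1 (h2 _ (mul_mem (inv_mem b1) hu) b3)
  refine h.fz hu (mul_inv_eq_iff_eq_mul.1 ?_).symm
  rw [← mul_left_inj w⁻¹, ← mul_right_inj w, ← mul_assoc w r, a2, ← b2]; group

omit [Finite G] hp in
theorem az : Commute a z := h.a2 ▸ (Commute.refl a).mul_right (.refl a)

omit [Finite G] hp in
theorem tz : Commute t z := h.a2 ▸ h.ta.mul_right h.ta

theorem t2' : t * t = z := h.t2.resolve_left fun e => by
  have k : ∀ w, w * w = 1 → Commute w z → w * x * w⁻¹ = x⁻¹ → Commute w a → Commute w b → ∀ u ∈ P, Commute u w → u = 1 :=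
    fun w w2 wz wx wa wb u hu c => by_contra fun u1 => by
      have f := (h.fix (h.hi w wz wx w2) hu c u1).1
      have m : ∀ g ∈ normalizer (P : Set G), Commute w g → ∃ i : ℤ, g * u * g⁻¹ = u ^ i := fun g g1 g2 => by
        obtain ⟨i, e⟩ := f.ge ⟨(g1 u).1 hu, mem_centralizer_singleton_iff.2
          ((g2.symm.mul_left c).mul_left g2.symm.inv_left)⟩
        exact ⟨i, e.symm⟩
      obtain ⟨i, e1⟩ := m a h.aP wa
      obtain ⟨j, e2⟩ := m b h.bP wb
      have e3 : a * b * u * (a * b)⁻¹ = b * a * u * (b * a)⁻¹ := by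
        calc _ = a * (b * u * b⁻¹) * a⁻¹ := by group
          _ = b * (a * u * a⁻¹) * b⁻¹ := by rw [e1, e2, ← conj_zpow, ← conj_zpow, e1, e2, ← zpow_mul, ← zpow_mul, mul_comm]
          _ = _ := by group
      have e4 : a * b = b * a * z := by
        rw [mul_inv_eq_iff_eq_mul.1 h.ab, mul_assoc, (h.symm.az).eq, ← h.a2]; group
      refine u1 (h.ix wx hu c (mul_inv_eq_iff_eq_mul.1 ?_).symm)
      rw [← mul_left_inj (b * a)⁻¹, ← mul_right_inj (b * a), ← mul_assoc _ u, ← e3, e4]; group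
  exact h.two e h.tz h.tP (k t e h.tz h.tx h.ta h.tb) (k _ (by rw [h.tz.symm.mul_mul_mul_comm, e, h.z2, mul_one])
    (h.tz.mul_left (.refl z)) (by rw [← h.tx, mul_assoc t, ← h.xz.eq]; group) (h.ta.mul_left h.az.symm)
    (h.tb.mul_left h.symm.az.symm))

theorem w2 : t * a * (t * a) = 1 := by rw [h.ta.symm.mul_mul_mul_comm, h.t2', h.a2, h.z2]

omit [Finite G] hp in
theorem wz : Commute (t * a) z := h.tz.mul_left h.az

omit [Finite G] hp in
theorem wx : t * a * x * (t * a)⁻¹ = x⁻¹ := by rw [← h.tx, mul_assoc t, h.ax.eq]; group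

theorem wc : IsConj z (t * a) := h.hi _ h.wz h.wx h.w2

omit [Finite G] hp in
theorem bw : b * (t * a) * b⁻¹ = t * a * z := by
  rw [← mul_assoc, ← h.tb.eq, mul_assoc t, mul_assoc t, h.ab, mul_assoc, inv_eq_of_mul_eq_one_right
    (show a * (a * z) = 1 by rw [← mul_assoc, h.a2, h.z2])]

theorem ex : ∃ y ∈ P, y ≠ 1 ∧ Commute y (t * a) := by
  by_contra! k
  have k' : ∀ u ∈ P, Commute u (t * a) → u = 1 := fun u a b => by_contra fun c => k u a c b
  refine h.two h.w2 h.wz (mul_mem h.tP h.aP) k' fun u hu c => ?_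
  have := k' (b⁻¹ * u * b⁻¹⁻¹) ((inv_mem h.bP u).1 hu) (by
    rw [← h.bw] at c
    simpa [mul_assoc] using c.conj b⁻¹)
  rwa [conj_eq_one_iff] at this

theorem zi (hy : y ∈ P) (c : Commute y (t * a)) : z * y * z⁻¹ = y⁻¹ := by
  obtain ⟨s, a1, a2, a3⟩ := dec h.odd h.z2 h.zP hy
  obtain ⟨k, e⟩ := h.fz (mul_mem (inv_mem a1) hy) a3
  have e1 : y = s * x ^ k := by rw [show x ^ k = _ from e, mul_inv_cancel_left]
  have e2 : z * y * z⁻¹ * y = x ^ (k + k) := by
    rw [e1, ← conj_mul, a2, (h.xz.zpow_left k).symm.eq, mul_inv_cancel_right, mul_assoc, ← mul_assoc (x ^ k),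
      ← ((h.cP s a1).zpow_right k).eq, zpow_add]; group
  refine eq_inv_of_mul_eq_one_left (h.ix h.wx (mul_mem ((h.zP y).1 hy) hy)
    (((h.wz.symm.mul_left c).mul_left h.wz.symm.inv_left).mul_left c) (e2 ▸ h.xz.zpow_left _))

theorem syl {v w' : G} (hu : orderOf u = p) (hv : orderOf v = p) (hw : IsConj z w) (hw' : IsConj z w')
    (c : Commute u w) (c' : Commute v w') : ∃ g : G, ∃ k : ℕ, g * u * g⁻¹ = v ^ k := by
  obtain ⟨g, rfl⟩ := isConj_iff.1 (hw.symm.trans hw')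
  have l := zpowers_le.2 (mem_centralizer_singleton_iff.2 c'.eq)
  obtain ⟨k, -, e⟩ := exists_conj_le_of_not_dvd_relIndex' (p := p) (Q := zpowers (g * u * g⁻¹)) (T := zpowers v)
    (fun k => h.cen hw' (by rw [← card_mul_relIndex l, Nat.card_zpowers, hv, sq]; exact mul_dvd_mul_left _ k))
    (.of_card (n := 1) (by rw [Nat.card_zpowers, ZStar.orderOf_conj', hu, pow_one]))
    (zpowers_le.2 (mem_centralizer_singleton_iff.2 (c.conj g).eq))
  obtain ⟨n, e⟩ := mem_powers_iff_mem_zpowers.2 (conj_le_iff.1 e _ (mem_zpowers _))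
  exact ⟨k * g, n, by rw [show v ^ n = _ from e]; group⟩

end LP

end Cfsg.Lib.RV
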