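import Cfsg.Agent.Lib.RV.Loc
import Cfsg.Agent.Lib.RV.Lin
import Cfsg.Agent.Lib.RV.Fus

/-!
# Three radical lines for `p = 13`
-/

set_option autoImplicit false

namespace Cfsg.Lib.RV

namespace LP

open Subgroup Cfsg.Lib.Transfer He M3

variable {G : Type*} [Group G] [Finite G] {z x a b t y : G} {P : Subgroup G}

theorem no3 {p : ℕ} [Fact p.Prime] (h : LP p z x a b t P) (hy : y ∈ P) (c : Commute y (t * a)) (c' : Commute y (t * b)) :
    y = 1 := by
  have k := c.inv_right.mul_right c'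
  have e : (t * a)⁻¹ * (t * b) * ((t * a)⁻¹ * (t * b)) = z := by
    calc _ = a⁻¹ * (b * a * b⁻¹)⁻¹ * (b * b) := by group
      _ = _ := by rw [h.ab, h.b2]; group
  exact h.ix h.wx hy c (e ▸ k.mul_right k)

omit [Finite G] in
theorem ind {p : ℕ} [Fact p.Prime] (h : LP p z x a b t P) {u r w : G} (e1 : z * y * z⁻¹ = y⁻¹)
    (e2 : z * u * z⁻¹ = u⁻¹) (hu : u ∈ P) (hr : r ∈ zpowers x) (e : y = u * r) (c : Commute u w) : Commute y w := by
  obtain ⟨k, rfl⟩ := hr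
  have c1 := ((h.cP u hu).zpow_right k).eq
  have : x ^ k = 1 := h.eq_one (zpow_mem h.xP k) (h.xz.zpow_left k) (by
    rw [e, ← conj_mul, e2, c1, mul_inv_rev] at e1
    exact mul_left_cancel e1)
  rwa [e, show (fun k : ℤ => x ^ k) k = 1 from this, mul_one]

theorem not_comm (h : LP 13 z x a b t P) (hP : Nat.card P ≤ 13 ^ 3) (h4 : ¬ 13 ^ 4 ∣ Nat.card G) (hy : y ∈ P) (y1 : y ≠ 1)
    (c : Commute y (t * a)) (cc : Commute y (b * y * b⁻¹)) : False := by
  obtain ⟨f1, f2⟩ := h.fix h.wc hy c y1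
  have hy' := (h.bP y).1 hy
  have x13 : x ^ 13 = 1 := h.hx ▸ pow_orderOf_eq_one x
  have y13 : y ^ 13 = 1 := f2 ▸ pow_orderOf_eq_one y
  have u13 : (b * y * b⁻¹) ^ 13 = 1 := by rw [conj_pow, y13, mul_one, mul_inv_cancel]
  have zy := h.zi hy c
  have bu : b * (b * y * b⁻¹) * b⁻¹ = y⁻¹ := by rw [← zy, ← h.b2]; group
  have wu : t * a * (b * y * b⁻¹) * (t * a)⁻¹ = (b * y * b⁻¹)⁻¹ := by
    have : t * a * b = b * (t * a * z) := by
      rw [← h.bw, ← mul_assoc, ← mul_assoc, h.b2, ← h.wz.eq, mul_assoc _ z, ← h.b2, mul_inv_cancel_right]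
    calc _ = t * a * b * y * (t * a * b)⁻¹ := by group
      _ = b * (t * a * (z * y * z⁻¹) * (t * a)⁻¹) * b⁻¹ := by rw [this]; group
      _ = _ := by rw [zy, c.inv_left.symm.eq]; group
  obtain ⟨j, hj⟩ : ∃ j : ℕ, y ^ j = t * y * t⁻¹ := mem_powers_iff_mem_zpowers.2 (f1.ge ⟨(h.tP y).1 hy,
    mem_centralizer_singleton_iff.2 (by
      have := c.conj t
      rwa [mul_assoc t (t * a), h.ta.eq, mul_inv_cancel_right, h.ta.eq, ← h.ta.eq] at this)⟩)
  have tu : t * (b * y * b⁻¹) * t⁻¹ = (b * y * b⁻¹) ^ j := by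
    rw [conj_pow, hj, ← mul_assoc, ← mul_assoc, h.tb.eq, mul_assoc _ b⁻¹, h.tb.inv_inv.symm.eq]; group
  have xy := h.cP y hy
  have xu := h.cP _ hy'
  generalize hu : b * y * b⁻¹ = u at *
  let ε (v : V3) : G := x ^ v.1.val * y ^ v.2.1.val * u ^ v.2.2.val
  have εa : ∀ v w, ε (v + w) = ε v * ε w := fun v w => by
    simp only [ε, Prod.fst_add, Prod.snd_add, pw_add x13, pw_add y13, pw_add u13]
    rw [(xy.symm.pow_pow _ _).mul_mul_mul_comm, ((xu.symm.pow_pow _ _).mul_left (cc.pow_pow _ _)).mul_mul_mul_comm]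
  have ε0 : ε 0 = 1 := by simp [ε]
  have εn : ∀ v, ε (-v) = (ε v)⁻¹ := fun v => eq_inv_of_mul_eq_one_left (by rw [← εa, neg_add_cancel, ε0])
  have εp : ∀ (n : ℕ) v, ε ((n : K13) • v) = ε v ^ n := fun n v => by
    induction n with
    | zero => simp [ε0]
    | succ n ih => rw [Nat.cast_succ, add_smul, εa, ih, one_smul, pow_succ]
  have εP : ∀ v, ε v ∈ P := fun v => mul_mem (mul_mem (pow_mem h.xP _) (pow_mem hy _)) (pow_mem hy' _)
  have e1 : ε (1, 0, 0) = x := by simp [ε, ZMod.val_one]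
  have e2 : ε (0, 1, 0) = y := by simp [ε, ZMod.val_one]
  have e3 : ε (0, 0, 1) = u := by simp [ε, ZMod.val_one]
  let A (g : G) (m : M3) : Prop := ∀ v, ε (m.ap v) = g * ε v * g⁻¹
  have mA : ∀ {g} {m : M3}, ε (m.a, m.d, m.g) = g * x * g⁻¹ → ε (m.b, m.e, m.h) = g * y * g⁻¹ →
      ε (m.c, m.f, m.k) = g * u * g⁻¹ → A g m := fun {g m} a1 a2 a3 v => by
    rw [show m.ap v = (v.1.val : K13) • (m.a, m.d, m.g) + (v.2.1.val : K13) • (m.b, m.e, m.h) +
      (v.2.2.val : K13) • (m.c, m.f, m.k) by ext <;> simp [ap, mul_comm], εa, εa, εp, εp, εp, a1, a2, a3]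
    simp only [ε, conj_pow, conj_mul]
  have Am : ∀ {g g' m m'}, A g m → A g' m' → A (g * g') (m * m') := fun a1 a2 v => by
    rw [mul_ap, a1, a2]; group
  have n1 : ∀ {v w : V3}, v = -w → ε v = (ε w)⁻¹ := fun e => e ▸ εn _
  have aT : A t (rk j (-1 - j) (1, 0, 0) (1, 0, 0)) :=
    mA (by rw [h.tx, ← e1]; exact n1 (by simp [rk])) (by rw [← hj, ← e2, ← εp]; simp [rk]) (by rw [tu, ← e3, ← εp]; simp [rk])
  have aW : A (t * a) (rk (-1) 2 (0, 1, 0) (0, 1, 0)) :=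
    mA (by rw [h.wx, ← e1]; exact n1 (by decide)) (by rw [← c.eq, mul_inv_cancel_right, ← e2]; exact congrArg ε (by decide))
      (by rw [wu, ← e3]; exact n1 (by decide))
  have aB : A b ⟨1, 0, 0, 0, 0, -1, 0, 1, 0⟩ :=
    mA (by rw [h.bx.eq, mul_inv_cancel_right, e1]) (by rw [hu, e3]) (by rw [bu, ← e2]; exact n1 (by decide))
  have pz : ∀ {g : G} {s : K13}, orderOf g = 13 → g ^ (s + s).val = 1 → s = 0 := fun {g s} o e => by
    have := (ZMod.natCast_eq_zero_iff _ 13).2 (o ▸ orderOf_dvd_of_pow_eq_one e)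
    rw [ZMod.natCast_zmod_val] at this
    have t13 : (13 : K13) = 0 := rfl
    linear_combination 7 * this - s * t13
  have ou : orderOf u = 13 := by rw [← hu, ZStar.orderOf_conj', f2]
  have εi : Function.Injective ε := fun v w e => by
    have k : ε (v - w) = 1 := by rw [sub_eq_add_neg, εa, εn, e, mul_inv_cancel]
    rw [← sub_eq_zero]
    generalize v - w = v at k
    have s : ∀ {g m}, A g m → ε (v + m.ap v) = 1 := fun a => by rw [εa, a, k]; simp
    have k1 := s (Am aB aB)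
    have k2 := s aW
    have k3 := s (Am (Am aB aB) aW)
    rw [show v + _ = (v.1 + v.1, 0, 0) by ext <;> simp [ap, mul_def]] at k1
    rw [show v + _ = (0, v.2.1 + v.2.1, 0) by ext <;> simp [ap, rk]; ring] at k2
    rw [show v + _ = (0, 0, v.2.2 + v.2.2) by ext <;> simp [ap, rk, mul_def]; ring] at k3
    exact Prod.ext (pz h.hx (by simpa [ε] using k1)) (Prod.ext (pz f2 (by simpa [ε] using k2)) (pz ou (by simpa [ε] using k3)))
  have hc : Nat.card V3 = 13 ^ 3 := by simp [Nat.card_prod]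
  have εb : Function.Bijective fun v => (⟨ε v, εP v⟩ : P) :=
    Function.Injective.bijective_of_nat_card_le (fun v w e => εi (congrArg Subtype.val e)) (hc ▸ hP)
  have εs : ∀ g ∈ P, ∃ v, ε v = g := fun g e => (εb.2 ⟨g, e⟩).imp fun v k => congrArg Subtype.val k
  have cP : Nat.card P = 13 ^ 3 := (Nat.card_eq_of_bijective _ εb).symm.trans hc
  have ex : ∀ g ∈ normalizer (P : Set G), ∃ m, A g m := fun g e =>
    let ⟨c, k1⟩ := εs _ ((e x).1 h.xP); let ⟨d, k2⟩ := εs _ ((e y).1 hy); let ⟨f, k3⟩ := εs _ ((e u).1 hy')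
    ⟨⟨c.1, d.1, f.1, c.2.1, d.2.1, f.2.1, c.2.2, d.2.2, f.2.2⟩, mA k1 k2 k3⟩
  have uq : ∀ {g m m'}, A g m → A g m' → m = m' := fun a1 a2 => ext_ap fun v => εi ((a1 v).trans (a2 v).symm)
  have A1 : ∀ {g}, g ∈ centralizer (P : Set G) → A g 1 := fun e v => by rw [one_ap, ← e _ (εP v), mul_inv_cancel_right]
  have pc : P ≤ centralizer (P : Set G) := fun g e g' e' => by
    obtain ⟨v, rfl⟩ := εs g e
    obtain ⟨w, rfl⟩ := εs g' e'
    rw [← εa, add_comm, εa]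
  have ix : ¬ 13 ∣ P.index := fun k => h4 (by rw [← P.card_mul_index, cP, pow_succ]; exact mul_dvd_mul_left _ k)
  obtain ⟨S, rfl⟩ := exists_sylow_eq_iff.2 ⟨h.pP, ix⟩
  have hi : (j : K13) * j = -1 := by
    have := uq (Am aT aT) (h.t2' ▸ h.b2 ▸ Am aB aB)
    simpa [rk, mul_def] using congrArg M3.e this
  have a3 : A (t * b) (rk (-1) 2 (0, 1, j) (0, 7, 6 * j)) := by
    have t13 : (13 : K13) = 0 := rfl
    convert Am aT aB using 1
    ext <;> simp [rk, mul_def]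
    · linear_combination t13
    · linear_combination j * t13
    · linear_combination j * t13
    · linear_combination 12 * hi - t13
  have fus : ∀ {v w}, v ≠ 0 → IsConj z w → Commute (ε v) w → ∃ m ∈ {m | ∃ g ∈ normalizer (S : Set G), A g m},
      ∃ n ∈ {m | ∃ g ∈ normalizer (S : Set G), A g m}, m * n = 1 ∧ n * m = 1 ∧ ∃ l : K13, m.ap (1, 0, 0) = l • v :=
    fun {v w} v0 hw cw => by
      obtain ⟨g, k, e⟩ := h.syl h.hx (h.fix hw (εP v) cw fun e => v0 (εi (e.trans ε0.symm))).2 (.refl z) hw h.xz cw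
      obtain ⟨n, n1, n2⟩ := S.conj_eq_normalizer_conj_of_mem_centralizer x g⁻¹ (pc h.xP) (pc (by
        rw [inv_inv, e]; exact pow_mem (εP v) k))
      obtain ⟨m, hm⟩ := ex _ (inv_mem n1)
      obtain ⟨m', hm'⟩ := ex _ n1
      exact ⟨m, ⟨_, inv_mem n1, hm⟩, m', ⟨_, n1, hm'⟩, uq (Am hm hm') (A1 (by simp)), uq (Am hm' hm) (A1 (by simp)), k,
        εi (by rw [hm, εp, ← e, e1, inv_inv, ← n2, inv_inv])⟩
  refine M3.lin (W := {m | ∃ g ∈ normalizer (S : Set G), A g m}) (fun ⟨g, a1, a2⟩ ⟨g', b1, b2⟩ => ⟨_, mul_mem a1 b1, Am a2 b2⟩)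
    ⟨1, one_mem _, A1 (one_mem _)⟩ (fun {m} ⟨g, a1, a2⟩ e => ?_) hi ⟨_, h.tP, aT⟩ ⟨_, mul_mem h.tP h.aP, aW⟩
    ⟨_, mul_mem h.tP h.bP, a3⟩ ?_
  · have pw : ∀ n : ℕ, A (g ^ n) (m ^ n) := fun n => by
      induction n with
      | zero => simpa using A1 (one_mem _)
      | succ n ih => rw [pow_succ, pow_succ]; exact Am ih a2
    have k := uq (pw _) (A1 (pow_index_mem (H := (centralizer (S : Set G)).subgroupOf (normalizer (S : Set G))) ⟨g, a1⟩))
    refine orderOf_eq_one_iff.1 (((Nat.Prime.eq_one_or_self_of_dvd (by norm_num) _ (orderOf_dvd_of_pow_eq_one e))).resolve_right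
      fun o => ix ?_)
    exact ((o ▸ orderOf_dvd_of_pow_eq_one k).trans (relIndex_dvd_of_le_left _ pc)).trans (relIndex_dvd_index_of_le le_normalizer)
  · simp only [List.forall_mem_cons, List.not_mem_nil, IsEmpty.forall_iff, implies_true, and_true]
    refine ⟨fus (by decide) h.wc (e2 ▸ c), fus (by simp) h.symm.wc (mul_inv_eq_iff_eq_mul.1 ?_).symm⟩
    rw [← a3]
    refine congrArg ε ?_
    have t13 : (13 : K13) = 0 := rfl
    ext <;> simp [ap, rk]
    · linear_combination 12 * hi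
    · linear_combination 12 * j * hi

theorem three (h : LP 13 z x a b t P) (h4 : ¬ 13 ^ 4 ∣ Nat.card G) : ∃ D : Dat 13, D.Rz h.h2 ∧ D.Three := by
  have hP : Nat.card P ≤ 13 ^ 3 := by
    obtain ⟨n, e⟩ := h.pP.exists_card_eq
    rw [e]
    exact Nat.pow_le_pow_right (by norm_num) (not_lt.1 fun k => h4 (((pow_dvd_pow 13 k).trans e.symm.dvd).trans
      (card_subgroup_dvd_card P)))
  obtain ⟨y, hy, y1, c⟩ := h.ex
  obtain ⟨r, hr, r1, c'⟩ := h.symm.ex
  have hu := (h.bP y).1 hy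
  have cu : Commute (b * y * b⁻¹) (t * a * z) := h.bw ▸ c.conj b
  have zy := h.zi hy c
  have zr := h.symm.zi hr c'
  have zu : z * (b * y * b⁻¹) * z⁻¹ = (b * y * b⁻¹)⁻¹ := by rw [conj_inv, ← zy, ← h.b2]; group
  have oy := (h.fix h.wc hy c y1).2
  have ou : orderOf (b * y * b⁻¹) = 13 := by rw [ZStar.orderOf_conj', oy]
  have nc := h.not_comm hP h4 hy y1 c
  have wc : IsConj z (t * a * z) := h.wc.trans (isConj_iff.2 ⟨b, h.bw⟩)
  generalize b * y * b⁻¹ = u at *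
  obtain ⟨s, a1, a2, a3⟩ := dec h.odd h.z2 h.zP (mul_mem hy hu)
  obtain ⟨k, e⟩ := h.fz (mul_mem (inv_mem a1) (mul_mem hy hu)) a3
  have e1 : y * u = s * x ^ k := by rw [show x ^ k = _ from e, mul_inv_cancel_left]
  have e2 : u * y = (x ^ k)⁻¹ * s := by
    have := congrArg (z * · * z⁻¹) e1
    simp only [← conj_mul, zy, zu, a2, (h.xz.zpow_left k).symm.eq, mul_inv_cancel_right] at this
    rw [← inv_inj, mul_inv_rev, this]; group
  have e3 : y * u = x ^ (k + k) * u * y := by rw [mul_assoc, e2, e1, ((h.cP s a1).zpow_right k).eq]; group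
  have x13 : (x ^ (k + k)) ^ 13 = 1 := by
    rw [← zpow_natCast, ← zpow_mul, mul_comm, zpow_mul, zpow_natCast, ← h.hx, pow_orderOf_eq_one, one_zpow]
  have n1 : x ^ (k + k) ≠ 1 := fun e => nc (by rw [commute_iff_eq, e3, e, one_mul])
  obtain ⟨ι, i1, i2, i3⟩ := exists_hom h.h2 (oy ▸ pow_orderOf_eq_one y) (ou ▸ pow_orderOf_eq_one u) x13 e3
    ((h.cP y hy).zpow_right _) ((h.cP u hu).zpow_right _)
  have hi := injective_of h.h2 (i3 ▸ n1)
  obtain ⟨D, d1, -, d3⟩ := exists_dat h.h2 hi h4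
  have zc : ∀ c, ι ⟨0, 0, c⟩ ∈ zpowers x := fun c => by
    rw [show (⟨0, 0, c⟩ : He (ZMod 13)) = ⟨0, 0, 2⟩ ^ (c / 2).val by rw [pow_val]; simp [two_ne h.h2], map_pow, i3]
    exact pow_mem (zpow_mem_zpowers x _) _
  have rg : ι.range = P := eq_of_le_of_card_ge (by
    rintro _ ⟨w, rfl⟩
    rw [eq_prod w, map_mul, map_mul, map_pow, map_pow, map_pow, i1, i2]
    exact mul_mem (mul_mem (pow_mem hy _) (pow_mem hu _)) (pow_mem (zpowers_le.2 h.xP (zc 1)) _))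
    (hP.trans ((Nat.card_congr (MonoidHom.ofInjective hi).toEquiv).symm.trans card').ge)
  obtain ⟨w, rfl⟩ := rg.ge hr
  have R : ∀ {v : He (ZMod 13)} {q}, v.v ≠ 0 → IsConj z q → Commute (ι v) q → v.v ∈ D.R := fun {v q} v0 hq cq => by
    obtain ⟨g, n, e⟩ := h.syl (h.fix hq (rg.le ⟨v, rfl⟩) cq fun e => v0 (by rw [hi (e.trans (map_one ι).symm)]; rfl)).2
      (orderOf_eq_prime x13 n1) hq (.refl z) cq (h.xz.zpow_left _)
    exact (d3 _).2 ⟨v0, n * 2, v.c, g, by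
      rw [show (⟨v.v.1, v.v.2, v.c⟩ : He (ZMod 13)) = v from rfl, e, ← i3, ← map_pow, pow_eq]; simp⟩
  have wb : w.b ≠ 0 := fun e => r1 (h.no3 hr (h.ind zr (u := y ^ w.a.val) (by rw [← conj_pow, zy, inv_pow]) (pow_mem hy _)
    (zc w.c) (by rw [← i1, ← map_pow, ← map_mul, pow_val]; congr 1; ext <;> simp [e]) (c.pow_left _)) c')
  have wa : w.a ≠ 0 := fun e => r1 (by
    have k := h.ind zr (u := u ^ w.b.val) (by rw [← conj_pow, zu, inv_pow]) (pow_mem hu _) (zc w.c)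
      (by rw [← i2, ← map_pow, ← map_mul, pow_val]; congr 1; ext <;> simp [e]) (cu.pow_left _)
    rw [← h.bw] at k
    rw [← conj_eq_one_iff (a := b⁻¹)]
    refine h.no3 ((inv_mem h.bP _).1 hr) (by simpa [mul_assoc] using k.conj b⁻¹) ?_
    have := c'.conj b⁻¹
    rwa [show b⁻¹ * (t * b) * b⁻¹⁻¹ = t * b by rw [h.tb.eq, inv_mul_cancel_left, inv_inv, h.tb.eq]] at this)
  refine ⟨D, d1, _, R (v := ⟨1, 0, 0⟩) (by simp [v_eq_zero]) h.wc (i1 ▸ c), _,
    R (v := ⟨0, 1, 0⟩) (by simp [v_eq_zero]) wc (i2 ▸ cu), _, R (v := w) (by simp [v_eq_zero, wa]) h.symm.wc c', ?_, ?_, ?_⟩ <;>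
    simp [wd, wa, wb]

end LP

theorem LH.three {G : Type*} [Group G] [Finite G] {z x a b t : G} (h : LH 13 z x a b t) (h4 : ¬ 13 ^ 4 ∣ Nat.card G) :
    ∃ D : Dat 13, D.Rz h.h2 ∧ D.Three :=
  let ⟨_, a1, a2, a3, a4, a5, a6, a7⟩ := h.exists_P
  LP.three ⟨h, a1, a2, a3, a4, a5, a6, a7⟩ h4

end Cfsg.Lib.RV
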