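import Cfsg.Agent.Lib.RV.Fus
import Cfsg.Agent.Lib.RV.Cls
import Cfsg.Agent.Lib.Tits.Over

/-! # The fusion systems on `3 ^ (1 + 2)` with four radical lines -/

set_option autoImplicit false

namespace Cfsg.Lib.RV

open He Subgroup

theorem exists_dat' {p : ℕ} [Fact p.Prime] (h2 : p ≠ 2) {G : Type*} [Group G] [Finite G]
    {ι : He (ZMod p) →* G} (hi : Function.Injective ι) (ho : ¬ p ^ 4 ∣ Nat.card G) {H : Subgroup G}
    (hH : ∀ x, ι x ∈ H) : ∃ D : Dat p, D.Rz h2 ∧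
      (∀ m, m ∈ D.W ↔ ∃ g ∈ H, ∀ x, ι (act m x) = g * ι x * g⁻¹) ∧ ∀ v, v ∈ D.R ↔ v ≠ 0 ∧
        ∃ (c c' : ZMod p), ∃ g ∈ H, ι ⟨0, 0, c⟩ = g * ι ⟨v.1, v.2, c'⟩ * g⁻¹ := by
  obtain ⟨D, h1, h3, h4⟩ := exists_dat h2 (ι := ι.codRestrict H hH)
    (fun x y e => hi (congrArg Subtype.val e)) fun h => ho (h.trans H.card_subgroup_dvd_card)
  refine ⟨D, h1, fun m => (h3 m).trans ?_, fun v => (h4 v).trans ?_⟩ <;> simp [Subtype.ext_iff]

theorem exists_act_of_norm {p : ℕ} [Fact p.Prime] (h2 : p ≠ 2) {G : Type*} [Group G]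
    {ι : He (ZMod p) →* G} (hi : Function.Injective ι) {g : G}
    (hg : ∀ x, ∃ y, ι y = g * ι x * g⁻¹) :
    ∃ m s, ∀ x, ι (act m x) = (ι s)⁻¹ * g * ι x * ((ι s)⁻¹ * g)⁻¹ := by
  choose f hf using hg
  obtain ⟨m, s, -, h⟩ := exists_act h2 (MonoidHom.mk' f fun x y => hi (by
    simp only [map_mul, hf]; group)) fun x y e => hi (by
      have := congrArg ι e
      simpa [hf] using this)
  refine ⟨m, s, fun x => ?_⟩
  have := congrArg ι (h x)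
  simp only [MonoidHom.mk'_apply, hf, map_mul, map_inv] at this
  rw [mul_assoc _ g, mul_inv_rev, inv_inv, ← mul_assoc, mul_assoc _ _ g⁻¹, this]; group

theorem mem_norm_zpowers {G : Type*} [Group G] {x u : G} (h : Commute x u) :
    x ∈ normalizer (zpowers u : Set G) := centralizer_le_normalizer _ fun y hy => by
  obtain ⟨k, rfl⟩ := mem_zpowers_iff.1 hy
  exact (h.zpow_right k).eq.symm

theorem exists_inv {G : Type*} [Group G] [Finite G] {T : Subgroup G} (hT : T.index = 2) {g t : G}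
    (hg : g ∉ T) (ht : t ∈ T) {P : Subgroup G} (h : ∀ x ∈ P, g * x * g⁻¹ = t * x * t⁻¹) :
    ∃ u, orderOf u = 2 ∧ ∀ x ∈ P, Commute x u := by
  have c1 : t⁻¹ * g ∉ T := by rwa [mul_mem_cancel_left (inv_mem ht)]
  have c2 : 2 ∣ orderOf (t⁻¹ * g) := by
    by_contra n
    obtain ⟨k, hk⟩ := Nat.odd_iff.2 (Nat.two_dvd_ne_zero.1 n)
    refine c1 ((mul_mem_cancel_left (pow_mem (mul_self_mem_of_index_two hT (t⁻¹ * g)) k)).1 ?_)
    rw [← sq, ← pow_mul, ← pow_succ, ← hk, pow_orderOf_eq_one]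
    exact one_mem _
  refine ⟨_, orderOf_pow_orderOf_div (orderOf_pos _).ne' c2, fun x hx =>
    Commute.pow_right (show x * _ = _ * x from ?_) _⟩
  rw [mul_assoc, eq_mul_of_mul_inv_eq (h x hx)]; group

open Cfsg.Lib.Tits Cfsg.Lib.Calc Cfsg.Lib.F2

/-- Parity of the second generator in a word. -/
def par : List ℕ → Bool
  | [] => true
  | i :: w => (i != 1) == par w

theorem mem_TT (w : List ℕ) : Tits.ev gl w ∈ TT ↔ par w = true := by
  induction w with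
  | nil => simp [Tits.ev, par]
  | cons i w ih =>
    have : gl.getD i 1 ∈ TT ↔ i ≠ 1 := by
      rcases i with _ | _ | _ | _ | i <;>
        simp [gl, U0_le_TT a_mem_U0, b_not_mem_TT, n0_mem, n1_mem]
    change _ * Tits.ev gl w ∈ TT ↔ _
    rw [mul_mem_iff_of_index_two index_TT, this, ih, par]
    cases par w <;> simp

/-- Words for the elements used. -/
def tw : List (List ℕ) := [[0, 2], [3, 2, 3, 0, 2, 3, 2, 3],
  [1, 3, 0, 1, 0, 3, 0, 2, 3, 1, 1, 0, 2, 1, 1, 3, 2, 0, 3, 0, 1, 1, 1, 0, 3, 1, 1, 1], [3, 2, 3],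
  [1, 3, 0, 1, 0, 3, 0, 2, 3, 1, 1], [1, 3, 0, 2, 3, 2, 0, 3, 2, 3, 1, 0]]

theorem tw_chk : forceL (tw.map cG) (fun L => band (Tits.bne (wrd m52 o52 L [0]) (wrd m52 o52 L []))
    (([([0, 0, 0], []), ([1, 2], [0, 2, 1]), ([1, 0], [0, 1]), ([2, 0], [0, 2]), ([3, 0], [1, 3]),
      ([4, 0], [2, 4]), ([5, 0], [1, 2, 5])] : List (List ℕ × List ℕ)).all
      fun e => Nat.beq (wrd m52 o52 L e.1) (wrd m52 o52 L e.2))) = true := by decide +kernel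

theorem exists_tits [Fact (Nat.Prime 3)] : ∃ ι : He (ZMod 3) →* Γ, Function.Injective ι ∧
    ∀ v ∈ ([(1, 0, 0), (0, 1, 0), (1, 1, 1)] : List (ZMod 3 × ZMod 3 × ZMod 3)),
      ∃ g ∈ TT, ι ⟨0, 0, 2⟩ = g * ι ⟨v.1, v.2.1, v.2.2⟩ * g⁻¹ := by
  have h := tw_chk
  have hl := E.wrds rl_gl tw
  rw [forceL_eq, band_eq_true, List.all_eq_true] at h
  have h0 := E.ev_ne hl h.1
  have k := fun e he => E.ev_eq hl (h.2 e he)
  have m3 := (mem_TT [3, 2, 3]).2 rfl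
  have m4 := (mem_TT [1, 3, 0, 1, 0, 3, 0, 2, 3, 1, 1]).2 rfl
  have m5 := (mem_TT [1, 3, 0, 2, 3, 2, 0, 3, 2, 3, 1, 0]).2 rfl
  simp only [tw, List.map_cons, List.map_nil] at h0 k
  generalize Tits.ev gl [3, 2, 3] = g1 at *
  generalize Tits.ev gl [1, 3, 0, 1, 0, 3, 0, 2, 3, 1, 1] = g2 at *
  generalize Tits.ev gl [1, 3, 0, 2, 3, 2, 0, 3, 2, 3, 1, 0] = g3 at *
  generalize Tits.ev gl [0, 2] = z at *
  generalize Tits.ev gl [3, 2, 3, 0, 2, 3, 2, 3] = x at *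
  generalize Tits.ev gl (1 :: _) = y at *
  simp [Tits.ev] at h0 k
  obtain ⟨k0, k1, k2, k3, k4, k5, k6⟩ := k
  have z3 : z ^ 3 = 1 := by rw [pow_three, k0]
  have e4 : x = g1 * z * g1⁻¹ := eq_mul_inv_of_mul_eq k4.symm
  have e5 : y = g2 * z * g2⁻¹ := eq_mul_inv_of_mul_eq k5.symm
  obtain ⟨ι, i1, i2, i3⟩ := exists_hom (p := 3) (by decide) (x := x) (y := y) (z := z)
    (by rw [e4, conj_pow, z3]; simp) (by rw [e5, conj_pow, z3]; simp) z3
    (k1.trans (mul_assoc _ _ _).symm) k2 k3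
  refine ⟨ι, injective_of (by decide) (i3 ▸ h0), ?_⟩
  simp only [List.forall_mem_cons, List.not_mem_nil, IsEmpty.forall_iff, implies_true, and_true]
  refine ⟨⟨g1⁻¹, inv_mem m3, by rw [i1, i3, e4]; group⟩, ⟨g2⁻¹, inv_mem m4, by rw [i2, i3, e5]; group⟩,
    g3⁻¹, inv_mem m5, ?_⟩
  rw [show (⟨1, 1, 1⟩ : He (ZMod 3)) = ⟨1, 0, 0⟩ * ⟨0, 1, 0⟩ by ext <;> simp, map_mul, i1, i2, i3,
    inv_inv, mul_assoc, mul_assoc, ← k6, inv_mul_cancel_left]

theorem no_inv {P : Subgroup Γ} (hP : Nat.card P = 27) {u : Γ} (h1 : orderOf u = 2)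
    (h : ∀ x ∈ P, Commute x u) : False := by
  obtain ⟨g, J, hJ, -, h3⟩ := L.bt (zpowers u)
    (.of_card (n := 1) (by rw [Nat.card_zpowers, h1, pow_one]))
    (by rw [Ne, zpowers_eq_bot]; rintro rfl; simp at h1)
  obtain ⟨i, hi⟩ := subset_single hJ
  have : 27 ∣ Nat.card (L.T.P {i}) := by
    rw [← hP, ← card_map_of_injective (f := (MulAut.conj g⁻¹).toMonoidHom) (MulEquiv.injective _)]
    refine card_dvd_of_le ?_
    rintro _ ⟨x, hx, rfl⟩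
    simpa using L.T.P_mono hi (h3 x (mem_norm_zpowers (h x hx)))
  rcases ι_cases i with rfl | rfl
  · rw [card_P0] at this; omega
  · rw [card_P1] at this; omega

theorem realizable_three [Fact (Nat.Prime 3)] (h2 : 3 ≠ 2) {E : Dat 3} (hE : E.Three) :
    ∃ D : Dat 3, D.Rz h2 ∧ E.Is D := by
  obtain ⟨ι, hi, h⟩ := exists_tits
  have ho : ¬ 3 ^ 4 ∣ Nat.card Γ := by rw [card_Γ]; decide
  have sq : ∀ g : Γ, g * g ∈ TT := fun g => mul_self_mem_of_index_two index_TT g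
  have hT : ∀ x, ι x ∈ TT := fun x => by
    have := sq (ι x * ι x)
    rwa [← map_mul, ← map_mul, show x * x * (x * x) = x ^ 3 * x by simp [pow_succ, mul_assoc], pow_p, one_mul] at this
  obtain ⟨D, d1, d2, d3⟩ := exists_dat' h2 hi ho hT
  obtain ⟨D', e1, e2, e3⟩ := exists_dat h2 hi ho
  have k : ∀ a b c, (a, b, c) ∈ ([(1, 0, 0), (0, 1, 0), (1, 1, 1)] : List (ZMod 3 × ZMod 3 × ZMod 3)) →
      (a, b) ≠ 0 → (a, b) ∈ D.R := fun a b c hv n => (d3 (a, b)).2 ⟨n, 2, c, h (a, b, c) hv⟩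
  refine (Dat.is_or_is (D := D) (D' := D') ⟨_, k 1 0 0 (by simp) (by simp), _, k 0 1 0 (by simp)
    (by simp), _, k 1 1 1 (by simp) (by simp), by simp [wd], by simp [wd], by simp [wd]⟩
    (fun m hm => let ⟨g, _, e⟩ := (d2 m).1 hm; (e2 m).2 ⟨g, e⟩)
    (fun v hv => let ⟨n, c, c', g, _, e⟩ := (d3 v).1 hv; (e3 v).2 ⟨n, c, c', g, e⟩) (fun e => ?_)
    hE).elim (fun e => ⟨D, d1, e⟩) fun e => ⟨D', e1, e⟩
  have hc : Nat.card ι.range = 27 := (Nat.card_congr (MonoidHom.ofInjective hi).toEquiv).symm.trans card'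
  let P : Sylow 3 Γ := Sylow.ofCard ι.range (by rw [hc, card_Γ]; decide +kernel)
  obtain ⟨g, g1, g2⟩ : ∃ g ∈ normalizer (ι.range : Set Γ), g ∉ TT := by
    by_contra! k
    have := P.normalizer_sup_eq_top' (N := TT) (by rintro _ ⟨x, rfl⟩; exact hT x)
    exact b_not_mem_TT (top_le_iff.2 this |>.trans (sup_le k le_rfl) (mem_top Tits.b))
  obtain ⟨m, s, hm⟩ := exists_act_of_norm h2 hi (g := g) fun x => (g1 _).1 ⟨x, rfl⟩
  obtain ⟨t, t1, t2⟩ := (d2 m).1 (e ▸ (e2 m).2 ⟨_, hm⟩)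
  obtain ⟨u, u1, u2⟩ := exists_inv index_TT (g := (ι s)⁻¹ * g) (P := ι.range)
    (by rwa [mul_mem_cancel_left (inv_mem (hT s))]) t1 fun _ ⟨x, e⟩ => e ▸ (hm x).symm.trans (t2 x)
  exact no_inv hc u1 u2

end Cfsg.Lib.RV
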